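import Cfsg.Agent.H380.RC.EStmt
import Cfsg.Agent.H380.RC.Point

/-!
# S3510, family E, box E11b: linear involutions for `n = 3`, `q` even (helper322)

* `lin_iso` : linear lifts preserve the form;
* `transv_of_inv` : a linear isometry of order two (`n = 3`, characteristic two) is a transvection;
* `fix_of_comm` : an element commuting with a root element fixes its centre;
* `inv_transv` : a linear element of order two of `G` is a root element;
* `no_lin_two` : no cover with a linear member of order two, the others of odd order.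
-/

set_option autoImplicit false

namespace Cfsg.Agent.H322.RC

open Matrix Cfsg Cfsg.Agent.LieClassical.HermBasic Cfsg.Agent.LieClassical.HermSiegel
  Cfsg.Agent.LieClassical.HermGen Cfsg.Agent.LieClassical.SUBasic Cfsg.Agent.ClassicalGeometry.PSUAutBasic
  Cfsg.Agent.ClassicalGeometry.PSUAutCount Cfsg.Agent.LieClassical.FieldTransfer Cfsg.Agent.ClassicalGeometry
open Cfsg.Agent.H380.RC

section alg

variable {F : Type*} [Field F] [Fintype F] {n q : ℕ}

/-- linear isometries of order two in dimension three, characteristic two -/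
theorem transv_of_inv (hF : Fintype.card F = q ^ 2) (hn : n = 3) (h2 : (2 : F) = 0) {g : (Fin n → F) → (Fin n → F)}
    (hadd : ∀ v w, g (v + w) = g v + g w) (hlin : Lin g)
    (hh : ∀ v w, hermForm n F q (g v) (g w) = hermForm n F q v w) (hgg : ∀ v, g (g v) = v) {v₀ : Fin n → F}
    (hne : g v₀ ≠ v₀) :
    ∃ (u : Fin n → F) (_ : u ≠ 0) (hu : hermForm n F q u u = 0) (μ : F) (hμ : μ + μ ^ q = 0) (_ : μ ≠ 0),
      ∀ v, g v = act (transv hF u hu μ hμ) v := by
  have hV2 : ∀ v : Fin n → F, v + v = 0 := by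
    intro v
    have : v + v = (2 : F) • v := by rw [two_smul]
    rw [this, h2, zero_smul]
  have hgneg : ∀ v w, g (v - w) = g v - g w := by
    intro v w
    rw [eq_sub_iff_add_eq, ← hadd, sub_add_cancel]
  let δ : Module.End F (Fin n → F) :=
    { toFun := fun v => g v - v
      map_add' := fun v w => by rw [hadd]; abel
      map_smul' := fun c v => by rw [hlin, RingHom.id_apply, smul_sub] }
  have hδ : ∀ v, δ v = g v - v := fun v => rfl
  have hδδ : ∀ v, δ (δ v) = 0 := by
    intro v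
    rw [hδ, hδ, hgneg, hgg]
    have h1 := hV2 v
    have h3 := hV2 (g v)
    have e : v - g v - (g v - v) = (v + v) - (g v + g v) := by abel
    rw [e, h1, h3, sub_zero]
  have hsa : ∀ v w, hermForm n F q (δ v) w = hermForm n F q v (δ w) := by
    intro v w
    rw [hδ, hδ, herm_sub_left, herm_sub_right hF, ← hh (g v) w, hgg]
  have hle : LinearMap.range δ ≤ LinearMap.ker δ := by
    rintro _ ⟨v, rfl⟩
    exact hδδ v
  have hrk := δ.finrank_range_add_finrank_ker
  rw [Module.finrank_fin_fun] at hrk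
  have hle' := Submodule.finrank_mono hle
  have h1 : Module.finrank F (LinearMap.range δ) ≤ 1 := by omega
  obtain ⟨u, hu⟩ : ∃ u, u = δ v₀ := ⟨_, rfl⟩
  have hu0 : u ≠ 0 := by
    rw [hu, hδ]
    exact sub_ne_zero.2 hne
  have hspan : Submodule.span F {u} = LinearMap.range δ := by
    apply Submodule.eq_of_le_of_finrank_le
    · rw [Submodule.span_singleton_le_iff_mem]
      exact ⟨v₀, hu.symm⟩
    · rw [finrank_span_singleton hu0]
      exact h1
  have hL : ∀ v, ∃ a : F, a • u = δ v := by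
    intro v
    have : δ v ∈ Submodule.span F {u} := by
      rw [hspan]
      exact ⟨v, rfl⟩
    exact Submodule.mem_span_singleton.1 this
  have hδu : δ u = 0 := by rw [hu]; exact hδδ _
  have huu : hermForm n F q u u = 0 := by
    nth_rewrite 1 [hu]
    rw [hsa, hδu, herm_zero_right hF]
  obtain ⟨w, hw⟩ := exists_herm_ne_zero hF hu0
  obtain ⟨a, ha⟩ := hL w
  have hform : ∀ v, δ v = (a ^ q * (hermForm n F q u w)⁻¹ * hermForm n F q v u) • u := by
    intro v
    obtain ⟨b, hb⟩ := hL v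
    have h3 := hsa v w
    rw [← ha, ← hb, herm_smul_left, herm_smul_right] at h3
    rw [← hb]
    congr 1
    field_simp
    linear_combination h3
  obtain ⟨μ, hμdef⟩ : ∃ μ, μ = a ^ q * (hermForm n F q u w)⁻¹ := ⟨_, rfl⟩
  rw [← hμdef] at hform
  have hμ0 : μ ≠ 0 := by
    rintro h0
    apply hu0
    rw [hu, hform, h0, zero_mul, zero_smul]
  have hμ : μ + μ ^ q = 0 := by
    have h3 := hsa w w
    rw [hform w, herm_smul_left, herm_smul_right, mul_pow] at h3
    have h4 : (hermForm n F q w u) ^ q = hermForm n F q u w := (herm_swap hF w u).symm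
    have hwu : hermForm n F q w u ≠ 0 := fun h0 => hw (herm_eq_zero_swap hF h0)
    rw [h4] at h3
    have h5 : (μ - μ ^ q) * (hermForm n F q w u * hermForm n F q u w) = 0 := by linear_combination h3
    rcases mul_eq_zero.1 h5 with h6 | h6
    · linear_combination h6 + μ ^ q * h2
    · rcases mul_eq_zero.1 h6 with h7 | h7
      · exact absurd h7 hwu
      · exact absurd h7 hw
  refine ⟨u, hu0, huu, μ, hμ, hμ0, fun v => ?_⟩
  rw [act_transv, ← hform, hδ]
  abel

/-- square roots of norm one elements in characteristic two -/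
theorem exists_sqrt (hF : Fintype.card F = q ^ 2) (h2 : (2 : F) = 0) {c : F} (hc : c * c ^ q = 1) :
    ∃ d : F, d * d = c ∧ d * d ^ q = 1 := by
  have hchar : CharP F 2 := CharTwo.of_one_ne_zero_of_two_eq_zero one_ne_zero h2
  obtain ⟨d, hd⟩ : ∃ d : F, d ^ 2 = c := by
    have := surjective_frobenius F 2
    obtain ⟨d, hd⟩ := this c
    exact ⟨d, hd⟩
  refine ⟨d, by rw [← sq, hd], ?_⟩
  have h1 : (d * d ^ q) ^ 2 = 1 := by
    rw [← hd] at hc
    linear_combination hc
  have h3 : (d * d ^ q - 1) ^ 2 = 0 := by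
    linear_combination h1 - (d * d ^ q - 1) * h2
  exact sub_eq_zero.1 (pow_eq_zero_iff two_ne_zero |>.1 h3)

end alg

section env

variable {G Ω : Type*} [Group G] [MulAction G Ω] {N : Subgroup G} {F : Type*} [Field F] [Fintype F] {n q : ℕ}
  {U : UEnv G Ω N F n q} {x : G} {f : (Fin n → F) → (Fin n → F)}

theorem f_zero (h : U.Lft x f) : f 0 = 0 := Ind.map_zero h

theorem exists_ne (U : UEnv G Ω N F n q) : ∃ v : Fin n → F, v ≠ 0 := by
  have hn := U.hn
  refine ⟨fun _ => 1, fun h => one_ne_zero (congrFun h ⟨0, by omega⟩)⟩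

/-- linear lifts preserve the form -/
theorem lin_iso (h : U.Lft x f) (hl : Lin f) (v w : Fin n → F) :
    hermForm n F q (f v) (f w) = hermForm n F q v w := by
  obtain ⟨ρ, hs, hh⟩ := Ind.exists_rho h
  obtain ⟨v₀, hv₀⟩ := exists_ne U
  have hfv : f v₀ ≠ 0 := by
    intro h0
    rw [← f_zero h] at h0
    exact hv₀ (Ind.injective h h0)
  have hρ : ∀ a : F, ρ a = a := by
    intro a
    have h1 := hs a v₀
    rw [hl] at h1
    have h3 : (a - ρ a) • f v₀ = 0 := by rw [sub_smul, h1, sub_self]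
    exact (sub_eq_zero.1 ((smul_eq_zero.1 h3).resolve_right hfv)).symm
  rw [hh, hρ]

/-- scalar lifts have norm one -/
theorem norm_of_scalar (U : UEnv G Ω N F n q) (h : U.Lft x f) {c : F} (hc : ∀ v, f v = c • v) : c * c ^ q = 1 := by
  obtain ⟨d, hd, hd'⟩ := U.lft_one.unique (x := 1) (g := f) (by
    have : x = 1 := h.eq_one_iff.2 ⟨c, hc⟩
    rwa [this] at h)
  obtain ⟨v₀, hv₀⟩ := exists_ne U
  have h1 : (c - d) • v₀ = 0 := by rw [sub_smul, ← hc, hd', sub_self]
  have h3 := sub_eq_zero.1 ((smul_eq_zero.1 h1).resolve_right hv₀)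
  rw [h3, hd]

/-- lifts of commuting elements, one of them a root element, commute -/
theorem comm_transv (h : U.Lft x f) {u : Fin n → F} {hu : hermForm n F q u u = 0} (hu0 : u ≠ 0) {μ : F}
    {hμ : μ + μ ^ q = 0}
    (hc : x * U.el (transv U.hF u hu μ hμ) = U.el (transv U.hF u hu μ hμ) * x) (v : Fin n → F) :
    f (act (transv U.hF u hu μ hμ) v) = act (transv U.hF u hu μ hμ) (f v) := by
  have h1 := h.mul (U.lft_el (transv U.hF u hu μ hμ))
  have h2 := (U.lft_el (transv U.hF u hu μ hμ)).mul h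
  rw [← hc] at h2
  obtain ⟨κ, -, hκ⟩ := h1.unique h2
  have hfu : f u ≠ 0 := by
    intro h0
    rw [← f_zero h] at h0
    exact hu0 (Ind.injective h h0)
  have h3 := hκ u
  rw [act_transv U.hF hu hμ u, hu, mul_zero, zero_smul, add_zero, act_transv] at h3
  have hκ1 : κ = 1 := by
    by_contra hne
    have h4 : (κ - 1) • f u = (μ * hermForm n F q (f u) u) • u := by
      rw [sub_smul, one_smul, ← h3]; abel
    have h5 : f u = ((κ - 1)⁻¹ * (μ * hermForm n F q (f u) u)) • u := by
      rw [mul_smul, ← h4, smul_smul, inv_mul_cancel₀ (sub_ne_zero.2 hne), one_smul]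
    have h6 : hermForm n F q (f u) u = 0 := by
      rw [h5, herm_smul_left, hu, mul_zero]
    rw [h6, mul_zero, zero_smul] at h4
    rcases smul_eq_zero.1 h4 with h7 | h7
    · exact hne (sub_eq_zero.1 h7)
    · exact hfu h7
  have h4 := hκ v
  rw [hκ1, one_smul] at h4
  exact h4.symm

/-- an element commuting with a root element fixes its centre -/
theorem fix_of_comm (h : U.Lft x f) {u : Fin n → F} {hu : hermForm n F q u u = 0} (hu0 : u ≠ 0) {μ : F}
    {hμ : μ + μ ^ q = 0} (hμ0 : μ ≠ 0)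
    (hc : x * U.el (transv U.hF u hu μ hμ) = U.el (transv U.hF u hu μ hμ) * x) : ∃ c : F, f u = c • u := by
  have h1 := comm_transv h hu0 hc
  obtain ⟨w, hw⟩ := exists_herm_ne_zero U.hF hu0
  have hw' : hermForm n F q w u ≠ 0 := fun h0 => hw (herm_eq_zero_swap U.hF h0)
  obtain ⟨v, hv⟩ : ∃ v, v = (μ * hermForm n F q w u)⁻¹ • w := ⟨_, rfl⟩
  have hv1 : μ * hermForm n F q v u = 1 := by
    rw [hv, herm_smul_left]
    field_simp
  have h3 := h1 v
  rw [act_transv, act_transv, hv1, one_smul, Ind.map_add h, add_right_inj] at h3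
  exact ⟨_, h3⟩

/-- an element commuting with a root group: the field automorphism and the norm of the eigenvalue -/
theorem rho_of_comm (h : U.Lft x f) {ρ : F ≃+* F} (hs : ∀ (c : F) (v : Fin n → F), f (c • v) = ρ c • f v)
    (hh : ∀ u v, hermForm n F q (f u) (f v) = ρ (hermForm n F q u v)) {u : Fin n → F}
    {hu : hermForm n F q u u = 0} (hu0 : u ≠ 0) {c : F} (hcu : f u = c • u) {μ : F}
    {hμ : μ + μ ^ q = 0}
    (hc : x * U.el (transv U.hF u hu μ hμ) = U.el (transv U.hF u hu μ hμ) * x) : c * c ^ q * ρ μ = μ := by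
  have h1 := comm_transv h hu0 hc
  obtain ⟨w, hw⟩ := exists_herm_ne_zero U.hF hu0
  have hw' : hermForm n F q w u ≠ 0 := fun h0 => hw (herm_eq_zero_swap U.hF h0)
  have hc0 : c ≠ 0 := by
    rintro rfl
    rw [zero_smul, ← f_zero h] at hcu
    exact hu0 (Ind.injective h hcu)
  have h3 := h1 w
  rw [act_transv, act_transv, Ind.map_add h, add_right_inj, hs, hcu, smul_smul] at h3
  have h4 : (ρ (μ * hermForm n F q w u) * c - μ * hermForm n F q (f w) u) • u = 0 := by
    rw [sub_smul, h3, sub_self]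
  have h5 := sub_eq_zero.1 ((smul_eq_zero.1 h4).resolve_right hu0)
  have h6 := hh w u
  rw [hcu, herm_smul_right] at h6
  rw [map_mul, ← h6] at h5
  have h7 : hermForm n F q (f w) u ≠ 0 := by
    intro h0
    rw [h0, mul_zero] at h6
    exact hw' ((map_eq_zero_iff ρ ρ.injective).1 h6.symm)
  have h8 : (c * c ^ q * ρ μ - μ) * hermForm n F q (f w) u = 0 := by linear_combination h5
  exact sub_eq_zero.1 ((mul_eq_zero.1 h8).resolve_right h7)

/-- **Linear elements of order two are root elements.** -/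
theorem inv_transv (U : UEnv G Ω N F n q) (hn : n = 3) (h2 : (2 : F) = 0) (h : U.Lft x f) (hl : Lin f)
    (hx : x ^ 2 = 1) (hx1 : x ≠ 1) :
    ∃ (u : Fin n → F) (_ : u ≠ 0) (hu : hermForm n F q u u = 0) (μ : F) (hμ : μ + μ ^ q = 0) (_ : μ ≠ 0),
      x = U.el (transv U.hF u hu μ hμ) := by
  obtain ⟨c, hc⟩ := (h.pow 2).eq_one_iff.1 hx
  have hcc := norm_of_scalar U (h.pow 2) hc
  obtain ⟨d, hd, hdd⟩ := exists_sqrt U.hF h2 hcc
  have hd0 : d ≠ 0 := by
    rintro rfl
    rw [zero_mul] at hdd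
    exact zero_ne_one hdd
  have hdi : d⁻¹ * (d⁻¹) ^ q = 1 := by rw [inv_pow, ← mul_inv, hdd, inv_one]
  obtain ⟨g, hg⟩ : ∃ g : (Fin n → F) → (Fin n → F), g = fun v => d⁻¹ • f v := ⟨_, rfl⟩
  have hgL : U.Lft x g := by rw [hg]; exact h.scalar hdi
  have hgl : Lin g := by
    intro a v
    rw [hg]
    change d⁻¹ • f (a • v) = a • d⁻¹ • f v
    rw [hl, smul_comm]
  have hgg : ∀ v, g (g v) = v := by
    intro v
    rw [hg]
    change d⁻¹ • f (d⁻¹ • f v) = v
    have h3 := hc v
    rw [Function.iterate_succ_apply, Function.iterate_one] at h3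
    rw [hl, h3, smul_smul, smul_smul, ← hd]
    field_simp
    rw [one_smul]
  obtain ⟨v₀, hv₀⟩ : ∃ v₀, g v₀ ≠ v₀ := by
    by_contra hcon
    push Not at hcon
    exact hx1 (hgL.eq_one_iff.2 ⟨1, fun v => by rw [hcon, one_smul]⟩)
  obtain ⟨u, hu0, hu, μ, hμ, hμ0, hact⟩ := transv_of_inv U.hF hn h2 (Ind.map_add hgL) hgl (lin_iso hgL hgl) hgg hv₀
  refine ⟨u, hu0, hu, μ, hμ, hμ0, ?_⟩
  have h4 := U.lft_el (transv U.hF u hu μ hμ)
  have h5 : g = act (transv U.hF u hu μ hμ) := funext hact
  rw [h5] at hgL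
  exact hgL.inj h4

/-- odd primes are prime to `q` -/
theorem coprime_of_two (U : UEnv G Ω N F n q) (h2 : (2 : F) = 0) {r : ℕ} (hr : r.Prime) (hr2 : r ≠ 2) :
    r.Coprime q := by
  obtain ⟨p, k, hp, hchar, hk, hk0⟩ := exists_prime_pow U.hF
  have h1 : p ∣ 2 := (CharP.cast_eq_zero_iff F p 2).1 (by exact_mod_cast h2)
  have h3 : p = 2 := (Nat.prime_dvd_prime_iff_eq hp Nat.prime_two).1 h1
  rw [hk, h3]
  exact ((Nat.coprime_primes hr Nat.prime_two).2 hr2).pow_right k

end env

section nolin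

variable {G Ω : Type*} [Group G] [Finite G] [MulAction G Ω] [Nonempty Ω] {N : Subgroup G} {F : Type*} [Field F]
  [Fintype F] {n q : ℕ}

/-- **No cover with a linear member of order two, the others of odd order.** -/
theorem no_lin_two (U : UEnv G Ω N F n q) (hn : n = 3) (h2 : (2 : F) = 0) {ι : Type*} [Finite ι] {x : ι → G}
    {f : ι → (Fin n → F) → (Fin n → F)} {r : ι → ℕ} (hfam : UFam U x f r) (hcov : H106.RC.Cov Ω x) {s : ι}
    (hl : Lin (f s)) (hs : r s = 2) : False := by
  obtain ⟨u, hu0, hu, μ, hμ, hμ0, hx⟩ := inv_transv U hn h2 (hfam.lft s) hl (by rw [← hs]; exact hfam.pf.pow s)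
    (hfam.pf.ne s)
  refine U.root (ι := {j : ι // j ≠ s}) (x := fun j => x j.1) (f := fun j => f j.1) (r := fun j => r j.1)
    (fun j => hfam.pf.prime _) (fun j => coprime_of_two U h2 (hfam.pf.prime _) ?_) (fun j => hfam.pf.pow _)
    (fun j => hfam.pf.ne _) (fun i j => hfam.pf.comm _ _) (fun j => hfam.lft _) hu0 hu (fun j => ?_) hμ hμ0 (fun ω => ?_)
  · intro h
    exact j.2 (hfam.pf.inj (h.trans hs.symm))
  · refine fix_of_comm (hu := hu) (hμ := hμ) (hfam.lft _) hu0 hμ0 ?_
    rw [← hx]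
    exact hfam.pf.comm _ _
  · obtain ⟨j, hj⟩ := hcov ω
    by_cases hjs : j = s
    · left
      rw [← hx, ← hjs]
      exact hj
    · exact Or.inr ⟨⟨j, hjs⟩, hj⟩

end nolin

end Cfsg.Agent.H322.RC
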