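import Cfsg.Agent.H322.RC.Graph
import Cfsg.Agent.H906.RC.Small
import Cfsg.Agent.S0277

/-!
# S3510, family E, box E11b: a field automorphism with fixed field of order four, `n = 3` (helper322)

* `four` : a linear isometry of `F^3` which commutes with the standard field automorphism with fixed field of order
  four has order dividing `648`;
* `sing_pair` : two different singular points of `F^3` are not orthogonal;
* `caseField_two` : the box.
-/

set_option autoImplicit false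

namespace Cfsg.Agent.H322.RC

open Matrix Cfsg Module Cfsg.Agent.LieClassical.HermBasic Cfsg.Agent.LieClassical.HermSiegel
  Cfsg.Agent.LieClassical.HermGen Cfsg.Agent.LieClassical.SUBasic Cfsg.Agent.ClassicalGeometry.PSUAutBasic
  Cfsg.Agent.ClassicalGeometry.PSUAutCount Cfsg.Agent.LieClassical.FieldTransfer Cfsg.Agent.ClassicalGeometry
open Cfsg.Agent.H380.RC
open Cfsg.Agent.CpAutU.Fld Cfsg.Agent.CpAut.Psl Cfsg.Agent.CpAut.Descent

section four

variable {F : Type*} [Field F] [Fintype F] {q : ℕ}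

theorem four {ρ : F ≃+* F} {ℓ : ℕ} (hodd : Odd ℓ) (hs : Nat.card ↥(fixf ρ) = 2 ^ 2) (hq : q = 2 ^ ℓ)
    {g : (Fin 3 → F) → (Fin 3 → F)} (hadd : ∀ v w, g (v + w) = g v + g w) (hlin : Lin g)
    (hh : ∀ v w, hermForm 3 F q (g v) (g w) = hermForm 3 F q v w)
    (hcomm : ∀ a : Fin 3 → F, g (fun i => ρ (a i)) = fun i => ρ (g a i)) {m : ℕ} (hm : m = 648)
    (v : Fin 3 → F) : g^[m] v = v := by
  classical
  letI : Fintype ↥(fixf ρ) := Fintype.ofFinite _
  have hF0 : Fintype.card ↥(fixf ρ) = 2 ^ 2 := by rw [← Nat.card_eq_fintype_card, hs]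
  have hpow : ∀ a : F, a ∈ fixf ρ → a ^ q = a ^ 2 := fun a ha => pow_q hodd hs hq ha
  have hg0 : g 0 = 0 := by
    have := hadd 0 0
    rw [add_zero] at this
    simpa using this
  have hent : ∀ i j, g (Pi.single j 1) i ∈ fixf ρ := by
    intro i j
    rw [mem_fixf]
    have h1 := congrFun (hcomm (Pi.single j 1)) i
    rw [CpAutU.Desc.single_map] at h1
    exact h1.symm
  let B0 : Matrix (Fin 3) (Fin 3) ↥(fixf ρ) := Matrix.of fun i j => ⟨g (Pi.single j 1) i, hent i j⟩
  have hexp : ∀ a : Fin 3 → F, a = a 0 • (Pi.single 0 1 : Fin 3 → F) + a 1 • (Pi.single 1 1 : Fin 3 → F) +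
      a 2 • (Pi.single 2 1 : Fin 3 → F) := by
    intro a
    funext i
    fin_cases i <;> simp
  have hgexp : ∀ a : Fin 3 → F, g a = a 0 • g (Pi.single 0 1) + a 1 • g (Pi.single 1 1) + a 2 • g (Pi.single 2 1) := by
    intro a
    conv_lhs => rw [hexp a]
    rw [hadd, hadd, hlin, hlin, hlin]
  have hB : ∀ a : Fin 3 → ↥(fixf ρ), g (fun i => (a i : F)) = fun i => ((B0 *ᵥ a) i : F) := by
    intro a
    rw [hgexp]
    funext i
    have : ((B0 *ᵥ a) i : F) = ((B0 i 0 * a 0 + B0 i 1 * a 1 + B0 i 2 * a 2 : ↥(fixf ρ)) : F) := by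
      rw [Matrix.mulVec, dotProduct, Fin.sum_univ_three]
    rw [this]
    change (a 0 : F) * g (Pi.single 0 1) i + (a 1 : F) * g (Pi.single 1 1) i + (a 2 : F) * g (Pi.single 2 1) i =
      g (Pi.single 0 1) i * (a 0 : F) + g (Pi.single 1 1) i * (a 1 : F) + g (Pi.single 2 1) i * (a 2 : F)
    ring
  have hform : ∀ a b : Fin 3 → ↥(fixf ρ), ((hermForm 3 ↥(fixf ρ) 2 a b : ↥(fixf ρ)) : F) =
      hermForm 3 F q (fun i => (a i : F)) (fun i => (b i : F)) := by
    intro a b
    rw [herm_def, herm_def, Fin.sum_univ_three, Fin.sum_univ_three]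
    rw [hpow _ (b 0).2, hpow _ (b 1).2, hpow _ (b 2).2]
    rfl
  have hiso : ∀ a b, hermForm 3 ↥(fixf ρ) 2 (B0 *ᵥ a) (B0 *ᵥ b) = hermForm 3 ↥(fixf ρ) 2 a b := by
    intro a b
    apply Subtype.ext
    rw [hform, hform, ← hB, ← hB, hh]
  have hdet : B0.det ≠ 0 := by
    intro h0
    obtain ⟨a, ha0, ha⟩ := Matrix.exists_mulVec_eq_zero_iff.2 h0
    apply ha0
    apply herm_nondeg hF0
    intro b
    rw [← hiso, ha, herm_zero_left]
  let B : GU 3 ↥(fixf ρ) 2 := ⟨GeneralLinearGroup.mkOfDetNeZero B0 hdet, fun u v => hiso u v⟩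
  have hgm : gm B = B0 := rfl
  have hcard : Nat.card (GU 3 ↥(fixf ρ) 2) = 648 := by
    rw [S0277.result hF0 3]
    decide
  have hB648 : B ^ m = 1 := by
    rw [hm, ← hcard]
    exact pow_card_eq_one'
  clear hm
  have hBk : ∀ k : ℕ, ∀ a : Fin 3 → ↥(fixf ρ), g^[k] (fun i => (a i : F)) = fun i => ((gm (B ^ k) *ᵥ a) i : F) := by
    intro k
    induction k with
    | zero =>
      intro a
      rw [pow_zero, gm_one, one_mulVec]
      rfl
    | succ k ih =>
      intro a
      rw [Function.iterate_succ_apply', ih, hB, pow_succ', gm_mul, hgm, mulVec_mulVec]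
  have hfix : ∀ j : Fin 3, g^[m] (Pi.single j 1) = Pi.single j 1 := by
    intro j
    have h1 := hBk m (Pi.single j 1)
    rw [hB648, gm_one, one_mulVec] at h1
    have h2 : (fun i => (((Pi.single j 1 : Fin 3 → ↥(fixf ρ)) i : ↥(fixf ρ)) : F)) = Pi.single j 1 := by
      funext i
      by_cases hij : i = j
      · subst hij
        rw [Pi.single_eq_same, Pi.single_eq_same]
        rfl
      · rw [Pi.single_eq_of_ne hij, Pi.single_eq_of_ne hij]
        rfl
    rwa [h2] at h1
  have hlk : ∀ k : ℕ, (∀ v w, g^[k] (v + w) = g^[k] v + g^[k] w) ∧ ∀ (c : F) v, g^[k] (c • v) = c • g^[k] v := by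
    intro k
    induction k with
    | zero => exact ⟨fun v w => rfl, fun c v => rfl⟩
    | succ k ih =>
      refine ⟨fun v w => ?_, fun c v => ?_⟩
      · rw [Function.iterate_succ_apply', ih.1, hadd, Function.iterate_succ_apply', Function.iterate_succ_apply']
      · rw [Function.iterate_succ_apply', ih.2, hlin, Function.iterate_succ_apply']
  obtain ⟨h1, h2⟩ := hlk m
  conv_lhs => rw [hexp v]
  rw [h1, h1, h2, h2, h2, hfix, hfix, hfix]
  exact (hexp v).symm

end four

section sing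

variable {F : Type*} [Field F] [Fintype F] {n q : ℕ}

/-- two different singular points of `F^3` are not orthogonal -/
theorem sing_pair (hF : Fintype.card F = q ^ 2) (hn : n = 3) {u w : Fin n → F} (hu0 : u ≠ 0)
    (hu : hermForm n F q u u = 0) (hw : hermForm n F q w w = 0) (h : ∀ a : F, w ≠ a • u) :
    hermForm n F q w u ≠ 0 := by
  intro hwu
  obtain ⟨z, hz1, hz2⟩ := exists_perp_eq hF h 1
  have hli : LinearIndependent F ![u, w] := by
    rw [LinearIndependent.pair_iff]
    intro s t hst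
    have ht : t = 0 := by
      by_contra ht
      apply h (-(t⁻¹ * s))
      have e : t⁻¹ • (s • u + t • w) = 0 := by rw [hst, smul_zero]
      rw [smul_add, smul_smul, smul_smul, inv_mul_cancel₀ ht, one_smul] at e
      rw [neg_smul]
      exact eq_neg_of_add_eq_zero_right e
    rw [ht, zero_smul, add_zero] at hst
    exact ⟨(smul_eq_zero.1 hst).resolve_right hu0, ht⟩
  have hsp : Submodule.span F (Set.range ![u, w]) = perp hF u := by
    apply Submodule.eq_of_le_of_finrank_le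
    · rw [Submodule.span_le]
      rintro _ ⟨i, rfl⟩
      fin_cases i
      · exact hu
      · exact hwu
    · rw [finrank_span_eq_card hli, Fintype.card_fin]
      have := finrank_perp hF hu0
      omega
  have hz : z ∈ Submodule.span F (Set.range ![u, w]) := by rw [hsp]; exact hz1
  have hzz : hermForm n F q z w = 0 := by
    refine Submodule.span_induction (p := fun v _ => hermForm n F q v w = 0) ?_ ?_ ?_ ?_ hz
    · rintro _ ⟨i, rfl⟩
      fin_cases i
      · exact herm_eq_zero_swap hF hwu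
      · exact hw
    · exact herm_zero_left _
    · intro v w _ _ h1 h3
      rw [herm_add_left, h1, h3, add_zero]
    · intro d v _ h1
      rw [herm_smul_left, h1, mul_zero]
  rw [hz2] at hzz
  exact one_ne_zero hzz

end sing

section desc

variable {G Ω : Type*} [Group G] [MulAction G Ω] {N : Subgroup G} {F : Type*} [Field F] [Fintype F] {n q : ℕ}

/-- **Standard form of a field automorphism of odd prime order.** -/
theorem exists_std (U : UEnv G Ω N F n q) {x : G} {f : (Fin n → F) → (Fin n → F)} (h : U.Lft x f) (hnl : ¬ Lin f)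
    {ℓ : ℕ} (hℓ : ℓ.Prime) (hℓ2 : ℓ ≠ 2) (hx : x ^ ℓ = 1) :
    ∃ (ρ : F ≃+* F) (P P' : (Fin n → F) → (Fin n → F)) (c : F), orderOf ρ = ℓ ∧ c * c ^ q = 1 ∧
      (∀ v w, P (v + w) = P v + P w) ∧ (∀ (a : F) v, P (a • v) = a • P v) ∧ (∀ v, P (P' v) = v) ∧ (∀ v, P' (P v) = v) ∧
      (∀ v w, hermForm n F q (P v) (P w) = hermForm n F q v w) ∧ ∀ a : Fin n → F, P (fun i => ρ (a i)) = c • f (P a) := by
  obtain ⟨A, ρ, rfl, h1⟩ := id h
  have hρ1 : ρ ≠ 1 := by
    rintro rfl
    exact hnl fun a v => sl_smul A 1 a v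
  have hpow : toAut A ρ ^ ℓ = 1 := by rw [← h1, ← map_pow, hx, map_one]
  obtain ⟨hord, M, hM⟩ := Cfsg.Agent.CpAutU.Desc.exists_conj U.hF U.hn hℓ hℓ2 hpow hρ1
  have hi1 : Ind (sl M (1 : F ≃+* F)) (toAut M 1) := ⟨M, 1, rfl, rfl⟩
  have hi2 : Ind (sl (1 : GU n F q) ρ) (toAut (1 : GU n F q) ρ) := ⟨1, ρ, rfl, rfl⟩
  obtain ⟨P', hP', hPP', hP'P⟩ := hi1.bij
  have hT : U.Lft x (fun v => sl M (1 : F ≃+* F) (sl (1 : GU n F q) ρ (P' v))) := by
    have h3 := hi1.comp (hi2.comp hP')
    rw [← mul_assoc, ← hM, ← h1] at h3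
    exact h3
  obtain ⟨c, hc, hcT⟩ := h.unique hT
  refine ⟨ρ, sl M (1 : F ≃+* F), P', c, hord, hc, sl_add M 1, sl_smul M 1, hPP', hP'P, fun v w => herm_sl M 1 v w,
    fun a => ?_⟩
  rw [← hcT]
  change _ = sl M (1 : F ≃+* F) (sl (1 : GU n F q) ρ (P' (sl M (1 : F ≃+* F) a)))
  rw [hP'P]
  congr 1
  rw [sl_def, gm_one, one_mulVec]

end desc

section main

variable {G Ω : Type} [Group G] [Finite G] [Finite Ω] [Nonempty Ω] [MulAction G Ω] {N : Subgroup G} {F : Type} [Field F]
  [Fintype F] {n q : ℕ}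

/-- an element of odd order with `CenA` is linear (characteristic two) -/
theorem lin_of_cen (U : UEnv G Ω N F n q) (h2 : (2 : F) = 0) {x : G} {f : (Fin n → F) → (Fin n → F)} (h : U.Lft x f)
    {m : ℕ} (hm : Odd m) (hfm : ∀ v, f^[m] v = v) {A : Submodule F (Fin n → F)} (hA : NDeg q A)
    (hA2 : finrank F A = 2) (hc : CenA U A x) : Lin f := by
  have hF := U.hF
  obtain ⟨v₀, hv₀⟩ := exists_ne U
  obtain ⟨σ, hsj, hhj⟩ := Ind.exists_rho h
  obtain ⟨d, hd0, hd⟩ := rho_of_cen U h hsj hhj hA hA2 hc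
  have hd1 : d = 1 := by
    have h1 := hd 1 (by rw [one_pow]; linear_combination h2)
    rwa [map_one, mul_one] at h1
  have hσfix : ∀ a : F, a ^ q = a → σ a = a := by
    intro a ha
    have h1 := hd a (by rw [ha]; linear_combination a * h2)
    rwa [hd1, one_mul] at h1
  have hσ2 : ∀ a, σ (σ a) = a := by
    intro a
    have e1 := hσfix (a + a ^ q) (trace_pow_q hF a)
    have e2 := hσfix (a * a ^ q) (norm_pow_q hF a)
    rw [map_add, map_pow] at e1
    rw [map_mul, map_pow] at e2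
    have e3 : (σ a - a) * (σ a - a ^ q) = 0 := by
      linear_combination (σ a) * e1 - e2
    rcases mul_eq_zero.1 e3 with h1 | h1
    · rw [sub_eq_zero.1 h1, sub_eq_zero.1 h1]
    · rw [sub_eq_zero.1 h1, map_pow, sub_eq_zero.1 h1, pow_q_pow_q hF]
  obtain ⟨k, hk⟩ := hm
  have hσm : ∀ a, (σ ^ m) a = a := rho_pow hsj hfm hv₀
  refine lin_of_rho hsj fun a => ?_
  have h3 := hσm a
  have h4 : ∀ k : ℕ, ∀ a, (σ ^ (2 * k)) a = a := by
    intro k
    induction k with
    | zero => intro a; rfl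
    | succ k ih =>
      intro a
      rw [mul_add, pow_add, RingAut.mul_apply, ih]
      exact hσ2 a
  rw [hk, pow_add, pow_one, RingAut.mul_apply, h4] at h3
  exact h3

/-- **The case of a field automorphism `x i₁` with fixed field of order four and one linear member `x s`.** -/
theorem two_members (U : UEnv G Ω N F n q) (hn : n = 3) (h2 : (2 : F) = 0) (hq : 4 ≤ q) {ι : Type} [Finite ι]
    {x : ι → G} {f : ι → (Fin n → F) → (Fin n → F)} {r : ι → ℕ} (hfam : UFam U x f r) (hcov : H106.RC.Cov Ω x)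
    (hRC : H106.RC.RC (PSU 2 F q)) {i₁ s : ι} (his : s ≠ i₁) (hall : ∀ i, i = i₁ ∨ i = s) (hnl : ¬ Lin (f i₁))
    (hr1 : r i₁ ≠ 2) (hr3 : r s = 3) (hls : Lin (f s)) {T : (Fin n → F) → (Fin n → F)} {c : F} (hc0 : c ≠ 0)
    (hT : ∀ v, T v = c • f i₁ v) (hTf : ∀ v, f s (T v) = T (f s v)) {ρ : F ≃+* F}
    (hTh : ∀ v w, hermForm n F q (T v) (T w) = ρ (hermForm n F q v w)) (hρ4 : ∀ a, ρ a = a → a ≠ 0 → a * a ^ q = 1)
    {e₀ : Fin n → F} (he00 : e₀ ≠ 0) (he0 : hermForm n F q e₀ e₀ = 0) (hTe : T e₀ = e₀) : False := by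
  classical
  have hF := U.hF
  have hcop : ∀ i, (r i).Coprime q := by
    intro i
    apply coprime_of_two U h2 (hfam.pf.prime i)
    rcases hall i with rfl | rfl
    · exact hr1
    · rw [hr3]; norm_num
  have hf1 : ∀ v, f i₁ v = c⁻¹ • T v := fun v => by rw [hT, smul_smul, inv_mul_cancel₀ hc0, one_smul]
  -- the point rule
  have hmove : ∀ a : F, f s e₀ ≠ a • e₀ := by
    intro a ha
    refine U.point hfam.pf.prime hcop hfam.pf.pow hfam.pf.ne hfam.pf.comm hfam.lft hcov he00 he0 (fun i => ?_)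
    rcases hall i with rfl | rfl
    · exact ⟨c⁻¹, by rw [hf1, hTe]⟩
    · exact ⟨a, ha⟩
  obtain ⟨e₁, he₁⟩ : ∃ e₁, e₁ = f s e₀ := ⟨_, rfl⟩
  have hiso := lin_iso (hfam.lft s) hls
  have he1 : hermForm n F q e₁ e₁ = 0 := by rw [he₁, hiso, he0]
  have hTe1 : T e₁ = e₁ := by rw [he₁, ← hTf, hTe]
  have hm' : ∀ a : F, e₁ ≠ a • e₀ := fun a => by rw [he₁]; exact hmove a
  have he10 : e₁ ≠ 0 := fun h => hm' 0 (by rw [h, zero_smul])
  have hβ0 := sing_pair hF hn he00 he0 he1 hm'
  obtain ⟨β, hβ⟩ : ∃ β, β = hermForm n F q e₁ e₀ := ⟨_, rfl⟩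
  rw [← hβ] at hβ0
  have hα : hermForm n F q e₀ e₁ = β ^ q := by rw [hβ, ← herm_swap hF]
  have hββ : β * β ^ q = 1 := by
    apply hρ4 β _ hβ0
    rw [hβ, ← hTh, hTe, hTe1]
  have hV2 : ∀ a : F, a + a = 0 := fun a => by linear_combination a * h2
  -- the plane
  obtain ⟨A, hAdef⟩ : ∃ A : Submodule F (Fin n → F), A = Submodule.span F (Set.range ![e₀, e₁]) := ⟨_, rfl⟩
  have hmemA : ∀ v, v ∈ A ↔ ∃ a b : F, v = a • e₀ + b • e₁ := by
    intro v
    rw [hAdef]
    constructor
    · intro hv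
      refine Submodule.span_induction (p := fun v _ => ∃ a b : F, v = a • e₀ + b • e₁) ?_ ?_ ?_ ?_ hv
      · rintro _ ⟨i, rfl⟩
        fin_cases i
        · exact ⟨1, 0, by simp⟩
        · exact ⟨0, 1, by simp⟩
      · exact ⟨0, 0, by simp⟩
      · rintro _ _ _ _ ⟨a, b, rfl⟩ ⟨a', b', rfl⟩
        exact ⟨a + a', b + b', by rw [add_smul, add_smul]; abel⟩
      · rintro d _ _ ⟨a, b, rfl⟩
        exact ⟨d * a, d * b, by rw [smul_add, smul_smul, smul_smul]⟩
    · rintro ⟨a, b, rfl⟩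
      exact Submodule.add_mem _ (Submodule.smul_mem _ _ (Submodule.subset_span ⟨0, rfl⟩))
        (Submodule.smul_mem _ _ (Submodule.subset_span ⟨1, rfl⟩))
  have hA : NDeg q A := by
    intro v hv hv'
    obtain ⟨a, b, rfl⟩ := (hmemA v).1 hv
    have h0 := hv' e₀ ((hmemA _).2 ⟨1, 0, by simp⟩)
    have h1 := hv' e₁ ((hmemA _).2 ⟨0, 1, by simp⟩)
    rw [herm_add_left, herm_smul_left, herm_smul_left, he0, ← hβ] at h0
    rw [herm_add_left, herm_smul_left, herm_smul_left, he1, hα] at h1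
    have hb : b = 0 := by
      have : b * β = 0 := by linear_combination h0
      exact (mul_eq_zero.1 this).resolve_right hβ0
    have ha : a = 0 := by
      have : a * β ^ q = 0 := by linear_combination h1
      exact (mul_eq_zero.1 this).resolve_right (pow_ne_zero _ hβ0)
    rw [ha, hb, zero_smul, zero_smul, add_zero]
  have hA2 : finrank F A = 2 := by
    have hli : LinearIndependent F ![e₀, e₁] := by
      rw [LinearIndependent.pair_iff]
      intro a b hab
      have h0 := congrArg (fun w => hermForm n F q w e₀) hab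
      have h1 := congrArg (fun w => hermForm n F q w e₁) hab
      simp only [herm_add_left, herm_smul_left, herm_zero_left, he0, he1, hα, ← hβ] at h0 h1
      constructor
      · have : a * β ^ q = 0 := by linear_combination h1
        exact (mul_eq_zero.1 this).resolve_right (pow_ne_zero _ hβ0)
      · have : b * β = 0 := by linear_combination h0
        exact (mul_eq_zero.1 this).resolve_right hβ0
    rw [hAdef, finrank_span_eq_card hli, Fintype.card_fin]
  -- the root elements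
  have h11 : (1 : F) + 1 ^ q = 0 := by rw [one_pow]; linear_combination h2
  obtain ⟨t₀, ht₀⟩ : ∃ t₀, t₀ = transv hF e₀ he0 1 h11 := ⟨_, rfl⟩
  obtain ⟨t₁, ht₁⟩ : ∃ t₁, t₁ = transv hF e₁ he1 1 h11 := ⟨_, rfl⟩
  have ha0 : ∀ v, act t₀ v = v + hermForm n F q v e₀ • e₀ := fun v => by rw [ht₀, act_transv, one_mul]
  have ha1 : ∀ v, act t₁ v = v + hermForm n F q v e₁ • e₁ := fun v => by rw [ht₁, act_transv, one_mul]
  have htt : t₁ * t₁ = 1 := by
    apply ext_act
    intro v
    rw [act_mul, ha1, ha1, act_one, herm_add_left, herm_smul_left, he1, mul_zero, add_zero, add_assoc, ← add_smul, hV2,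
      zero_smul, add_zero]
  have hts : x s * U.el t₀ * (x s)⁻¹ = U.el t₁ := by
    apply (hfam.lft s).conj_el
    intro v
    have h3 : hermForm n F q (f s v) e₁ = hermForm n F q v e₀ := by rw [he₁, hiso]
    rw [ha0, ha1, Ind.map_add (hfam.lft s), hls, ← he₁, h3]
  have hti : U.el t₀ * x i₁ = x i₁ * U.el t₀ := by
    have h3 : x i₁ * U.el t₀ * (x i₁)⁻¹ = U.el t₀ := by
      obtain ⟨σ, hs1, hh1⟩ := Ind.exists_rho (hfam.lft i₁)
      apply (hfam.lft i₁).conj_el
      intro v
      have hTadd : ∀ v w, T (v + w) = T v + T w := fun v w => by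
        rw [hT, hT, hT, Ind.map_add (hfam.lft i₁), smul_add]
      have hTs : ∀ (a : F) v, T (a • v) = σ a • T v := fun a v => by rw [hT, hT, hs1, smul_comm]
      have hTh' : ∀ v, σ (hermForm n F q v e₀) = hermForm n F q (T v) e₀ := by
        intro v
        have hcc : c * c ^ q = 1 := by
          obtain ⟨w, hw⟩ := exists_herm_ne_zero hF he00
          have h3 := hTh e₁ e₀
          rw [hTe, hTe1, ← hβ] at h3
          have h4 := hh1 e₁ e₀
          rw [hf1, hf1, hTe, hTe1, herm_smul_left, herm_smul_right, ← hβ] at h4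
          -- `c⁻¹ (c⁻¹)^q β = σ β`; both have norm one
          have h5 : (c⁻¹ * (c⁻¹) ^ q) * β = σ β := by rw [← h4]; ring
          have h6 : (c⁻¹ * (c⁻¹) ^ q) ^ 2 = 1 := by
            have h7 : σ β * (σ β) ^ q = 1 := by rw [← map_pow, ← map_mul, hββ, map_one]
            rw [← h5, mul_pow, norm_pow_q hF] at h7
            linear_combination h7 - (c⁻¹ * (c⁻¹) ^ q) ^ 2 * hββ
          have h8 := sq_inj h2 (h6.trans (one_pow 2).symm)
          rw [inv_pow, ← mul_inv] at h8
          exact inv_eq_one.1 h8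
        have h3 := hh1 v e₀
        rw [hf1, hf1 e₀, hTe, herm_smul_left, herm_smul_right] at h3
        rw [← h3, inv_pow]
        have hcq : c ^ q ≠ 0 := pow_ne_zero _ hc0
        field_simp
        rw [hcc, one_mul]
      rw [ha0, ha0, hf1, hf1 v, hTadd, hTs, hTe, hTh', smul_add, herm_smul_left, smul_smul]
    rw [mul_inv_eq_iff_eq_mul] at h3
    exact h3.symm
  -- the new member
  obtain ⟨y, hy⟩ : ∃ y, y = U.el t₀ * x s * (U.el t₀)⁻¹ * (x s)⁻¹ := ⟨_, rfl⟩
  have hy1 : y = U.el (t₀ * t₁) := by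
    have h3 : y = U.el t₀ * (x s * U.el t₀ * (x s)⁻¹)⁻¹ := by rw [hy]; group
    rw [h3, hts, ← map_inv, ← map_mul, inv_eq_of_mul_eq_one_left htt]
  have hcov' := hcov.mv_comm s (c := U.el t₀) (fun j hj => by
    rcases hall j with rfl | rfl
    · exact hti
    · exact absurd rfl hj)
  rw [← hy] at hcov'
  obtain ⟨Y, hY⟩ : ∃ Y, Y = act (t₀ * t₁) := ⟨_, rfl⟩
  have hYL : U.Lft y Y := by rw [hy1, hY]; exact U.lft_el _
  have hYv : ∀ v, Y v = v + (hermForm n F q v e₀ + hermForm n F q v e₁ * β) • e₀ + hermForm n F q v e₁ • e₁ := by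
    intro v
    rw [hY, act_mul, ha1, ha0, herm_add_left, herm_smul_left, ← hβ]
    abel
  have hYlin : Lin Y := by
    intro a v
    rw [hYv, hYv, herm_smul_left, herm_smul_left, smul_add, smul_add, smul_smul, smul_smul]
    congr 3
    ring
  have hY0 : ∀ v, hermForm n F q (Y v) e₀ = hermForm n F q v e₀ + hermForm n F q v e₁ * β := by
    intro v
    rw [hYv, herm_add_left, herm_add_left, herm_smul_left, herm_smul_left, he0, ← hβ]
    linear_combination (0 : F)
  have hY1 : ∀ v, hermForm n F q (Y v) e₁ = hermForm n F q v e₀ * β ^ q := by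
    intro v
    rw [hYv, herm_add_left, herm_add_left, herm_smul_left, herm_smul_left, he1, hα]
    linear_combination hermForm n F q v e₁ * hββ + hermForm n F q v e₁ * h2
  have hYYY : ∀ v, Y (Y (Y v)) = v := by
    intro v
    obtain ⟨a, ha⟩ : ∃ a, a = hermForm n F q v e₀ := ⟨_, rfl⟩
    obtain ⟨b, hb⟩ : ∃ b, b = hermForm n F q v e₁ := ⟨_, rfl⟩
    have e1 : Y v = v + (a + b * β) • e₀ + b • e₁ := by rw [hYv, ha, hb]
    have e2 : Y (Y v) = Y v + ((a + b * β) + (a * β ^ q) * β) • e₀ + (a * β ^ q) • e₁ := by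
      rw [hYv (Y v), hY0, hY1, ← ha, ← hb]
    have e3 : Y (Y (Y v)) = Y (Y v) + (((a + b * β) + (a * β ^ q) * β) + ((a + b * β) * β ^ q) * β) • e₀ +
        ((a + b * β) * β ^ q) • e₁ := by
      rw [hYv (Y (Y v)), hY0 (Y v), hY1 (Y v), hY0 v, hY1 v, ← ha, ← hb]
    rw [e3, e2, e1]
    have c0 : (a + b * β) + ((a + b * β) + (a * β ^ q) * β) +
        (((a + b * β) + (a * β ^ q) * β) + ((a + b * β) * β ^ q) * β) = 0 := by
      linear_combination (2 * a + (a + b * β)) * hββ + (3 * a + 2 * b * β) * h2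
    have c1 : b + a * β ^ q + (a + b * β) * β ^ q = 0 := by
      linear_combination b * hββ + (a * β ^ q + b) * h2
    have e4 : v + (a + b * β) • e₀ + b • e₁ + ((a + b * β) + (a * β ^ q) * β) • e₀ + (a * β ^ q) • e₁ +
        (((a + b * β) + (a * β ^ q) * β) + ((a + b * β) * β ^ q) * β) • e₀ + ((a + b * β) * β ^ q) • e₁ =
        v + ((a + b * β) + ((a + b * β) + (a * β ^ q) * β) +
        (((a + b * β) + (a * β ^ q) * β) + ((a + b * β) * β ^ q) * β)) • e₀ +
        (b + a * β ^ q + (a + b * β) * β ^ q) • e₁ := by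
      simp only [add_smul]
      abel
    rw [e4, c0, c1, zero_smul, zero_smul, add_zero, add_zero]
  have hYe : ∀ a : F, Y e₀ ≠ a • e₀ := by
    intro a ha
    have h3 : Y e₀ = (β ^ q) • e₁ := by
      rw [hYv, he0, hα, zero_add, show β ^ q * β = 1 by rw [mul_comm]; exact hββ, one_smul]
      have : e₀ + e₀ = 0 := by
        rw [← two_smul F, h2, zero_smul]
      rw [this, zero_add]
    rw [h3] at ha
    apply hm' ((β ^ q)⁻¹ * a)
    rw [mul_smul, ← ha, smul_smul, inv_mul_cancel₀ (pow_ne_zero _ hβ0), one_smul]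
  have hyne : y ≠ 1 := by
    intro h1
    obtain ⟨a, ha⟩ := hYL.eq_one_iff.1 h1
    exact hYe a (ha e₀)
  have hy3 : y ^ 3 = 1 := by
    rw [(hYL.pow 3).eq_one_iff]
    refine ⟨1, fun v => ?_⟩
    rw [one_smul]
    exact hYYY v
  have hyi : y * x i₁ = x i₁ * y := by
    have h3 : x s * x i₁ = x i₁ * x s := hfam.pf.comm s i₁
    have h4 : Commute (U.el t₀) (x i₁) := hti
    have h5 : Commute (x s) (x i₁) := h3
    rw [hy]
    exact ((h4.mul_left h5).mul_left h4.inv_left).mul_left h5.inv_left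
  -- the new family
  have hx's : Function.update x s y s = y := Function.update_self _ _ _
  have hx'i : Function.update x s y i₁ = x i₁ := Function.update_of_ne his.symm _ _
  have hf's : Function.update f s Y s = Y := Function.update_self _ _ _
  have hf'i : Function.update f s Y i₁ = f i₁ := Function.update_of_ne his.symm _ _
  have hpf : H106.RC.PF (Function.update x s y) r := by
    refine ⟨hfam.pf.prime, hfam.pf.inj, fun i => ?_, fun i => ?_, fun i j => ?_⟩
    · rcases hall i with rfl | rfl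
      · rw [hx'i]; exact hfam.pf.pow _
      · rw [hx's, hr3]; exact hy3
    · rcases hall i with rfl | rfl
      · rw [hx'i]; exact hfam.pf.ne _
      · rw [hx's]; exact hyne
    · rcases hall i with rfl | rfl <;> rcases hall j with rfl | rfl
      · rfl
      · rw [hx'i, hx's]; exact hyi.symm
      · rw [hx'i, hx's]; exact hyi
      · rfl
  have hlft : ∀ i, U.Lft (Function.update x s y i) (Function.update f s Y i) := by
    intro i
    rcases hall i with rfl | rfl
    · rw [hx'i, hf'i]; exact hfam.lft _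
    · rw [hx's, hf's]; exact hYL
  have hst : ∀ i, Stab (Function.update f s Y i) A := by
    intro i v hv
    obtain ⟨a, b, rfl⟩ := (hmemA v).1 hv
    rcases hall i with rfl | rfl
    · rw [hf'i]
      obtain ⟨σ, hs1, -⟩ := Ind.exists_rho (hfam.lft i)
      rw [Ind.map_add (hfam.lft i), hs1, hs1, hf1, hf1, hTe, hTe1]
      exact (hmemA _).2 ⟨σ a * c⁻¹, σ b * c⁻¹, by rw [smul_smul, smul_smul]⟩
    · rw [hf's, hYv]
      refine A.add_mem (A.add_mem hv ?_) ?_
      · exact A.smul_mem _ ((hmemA _).2 ⟨1, 0, by simp⟩)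
      · exact A.smul_mem _ ((hmemA _).2 ⟨0, 1, by simp⟩)
  have hno : ∀ j, ¬ CenA U A (Function.update x s y j) := by
    intro j hj
    rcases hall j with rfl | rfl
    · rw [hx'i] at hj
      obtain ⟨k, hk⟩ := hfam.ord j
      exact hnl (lin_of_cen U h2 (hfam.lft j) (((hfam.pf.prime j).odd_of_ne_two hr1).pow) hk hA hA2 hj)
    · rw [hx's] at hj
      obtain ⟨d, hd⟩ := scal_of_cen U hYL hYlin hA hA2 hj
      exact hYe d (hd e₀ ((hmemA _).2 ⟨1, 0, by simp⟩))
  exact plane U hq hpf hlft hcov' hA hA2 hst hRC (fun j hj => absurd hj (hno j)) (fun i j hi => absurd hi (hno i))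

/-- **Box E11b.** -/
theorem caseField_two : NoC fun {_ _ _ _ _ F _ _ n q} _ {ι} _ f r => n = 3 ∧
    (∃ i : ι, ¬ Lin (f i) ∧ r i ≠ 2 ∧ q = 2 ^ r i) ∧ H106.RC.IH (Nat.card (PSU n F q)) := by
  intro G Ω _ _ _ _ _ N F _ _ n q U ι _ x f r hfam hcov ⟨hn, ⟨i₁, hnl, hr1, hq⟩, hIH⟩
  classical
  subst hn
  have hF := U.hF
  obtain ⟨v₀, hv₀⟩ := exists_ne U
  have hℓ := hfam.pf.prime i₁
  have hℓ3 : 3 ≤ r i₁ := by
    have := hℓ.two_le
    omega
  have hℓodd : Odd (r i₁) := hℓ.odd_of_ne_two hr1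
  have hq8 : 8 ≤ q := by
    rw [hq]
    calc 8 = 2 ^ 3 := by norm_num
      _ ≤ 2 ^ r i₁ := Nat.pow_le_pow_right (by norm_num) hℓ3
  have h2 : (2 : F) = 0 := by
    obtain ⟨p, k, hp, hchar, hk, hk0⟩ := exists_prime_pow hF
    have h1 : p ∣ 2 ^ r i₁ := by
      rw [← hq, hk]
      exact dvd_pow_self p hk0.ne'
    have h3 : p = 2 := (Nat.prime_dvd_prime_iff_eq hp Nat.prime_two).1 (hp.dvd_of_dvd_pow h1)
    subst h3
    exact_mod_cast CharP.cast_eq_zero F 2
  -- `RC (PSU 2 F q)`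
  have hRC : H106.RC.RC (PSU 2 F q) := by
    have h1 := (H906.RC.small_stmt hF le_rfl U.h32 hIH).2.2.2.2.2.1
    refine H452.RC.rc_two hF fun K _ _ hK => h1 K hK (by omega) (by omega) (by omega) ?_
    intro h9
    rw [h9] at hq
    have : 2 ∣ 9 := by
      rw [hq]
      exact dvd_pow_self 2 (by omega)
    omega
  -- no members of order two
  have hodd : ∀ j, r j ≠ 2 := by
    intro j hj
    by_cases hl : Lin (f j)
    · exact no_lin_two U rfl h2 hfam hcov hl hj
    · exact graph_case U rfl h2 (by omega) hfam hcov hRC hl hj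
  -- the other members are linear
  have hlin : ∀ j, j ≠ i₁ → Lin (f j) := by
    intro j hj
    obtain ⟨σ, hs, -⟩ := Ind.exists_rho (hfam.lft j)
    obtain ⟨k, hk⟩ := hfam.ord j
    have h1 : orderOf σ ∣ r j ^ k := by
      apply orderOf_dvd_of_pow_eq_one
      exact RingEquiv.ext fun a => rho_pow hs hk hv₀ a
    obtain ⟨t, -, ht⟩ := (Nat.dvd_prime_pow (hfam.pf.prime j)).1 h1
    have hcard := card_fixf (σ := σ) rfl
    have h3 : orderOf σ ∣ 2 * r i₁ := by
      have hpos : 0 < orderOf σ := by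
        rw [ht]
        exact pow_pos (hfam.pf.prime j).pos _
      have h4 : (2 : ℕ) ^ (2 * r i₁) = Nat.card ↥(fixf σ) ^ orderOf σ := by
        rw [← hcard, hF, hq, ← pow_mul, mul_comm]
      have h5 : Nat.card ↥(fixf σ) ∣ 2 ^ (2 * r i₁) := by
        rw [h4]
        exact dvd_pow_self _ hpos.ne'
      obtain ⟨a, -, ha⟩ := (Nat.dvd_prime_pow Nat.prime_two).1 h5
      rw [ha, ← pow_mul] at h4
      have h6 := Nat.pow_right_injective (le_refl 2) h4
      exact ⟨a, by rw [h6]; ring⟩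
    have h4 : t = 0 := by
      by_contra ht0
      have h5 : r j ∣ 2 * r i₁ := by
        refine dvd_trans ?_ h3
        rw [ht]
        exact dvd_pow_self _ ht0
      rcases (hfam.pf.prime j).dvd_mul.1 h5 with h6 | h6
      · exact hodd j ((Nat.prime_dvd_prime_iff_eq (hfam.pf.prime j) Nat.prime_two).1 h6)
      · exact hj (hfam.pf.inj ((Nat.prime_dvd_prime_iff_eq (hfam.pf.prime j) hℓ).1 h6))
    rw [h4, pow_zero, orderOf_eq_one_iff] at ht
    exact lin_of_rho hs fun a => by rw [ht]; rfl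
  -- the standard form of `x i₁`
  obtain ⟨ρ, P, P', c, hord, hcc, hPadd, hPsmul, hPP', hP'P, hPh, hPT⟩ :=
    exists_std U (hfam.lft i₁) hnl hℓ hr1 (hfam.pf.pow i₁)
  have hc0 : c ≠ 0 := by
    rintro rfl
    rw [zero_mul] at hcc
    exact zero_ne_one hcc
  have hfix4 : Nat.card ↥(fixf ρ) = 2 ^ 2 := by
    have h1 := card_fixf hord
    rw [hF, hq] at h1
    have h3 : (2 ^ 2) ^ r i₁ = Nat.card ↥(fixf ρ) ^ r i₁ := by
      rw [← h1, ← pow_mul, ← pow_mul, mul_comm]
    exact (Nat.pow_left_injective hℓ.ne_zero h3).symm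
  have hP0 : ∀ v, P v = 0 → v = 0 := by
    intro v hv
    have h0 : P 0 = 0 := by
      have := hPsmul 0 0
      rwa [zero_smul, zero_smul] at this
    calc v = P' (P v) := (hP'P v).symm
      _ = P' (P 0) := by rw [hv, h0]
      _ = 0 := hP'P 0
  obtain ⟨T, hT⟩ : ∃ T : (Fin 3 → F) → (Fin 3 → F), ∀ v, T v = c • f i₁ v := ⟨_, fun v => rfl⟩
  have hTP : ∀ a : Fin 3 → F, T (P a) = P (fun i => ρ (a i)) := fun a => by rw [hT, hPT]
  have hTf : ∀ j, j ≠ i₁ → ∀ v, f j (T v) = T (f j v) := by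
    intro j hj v
    rw [hT, hT, hlin j hj, hfam.comm j i₁]
  have hP'add : ∀ v w, P' (v + w) = P' v + P' w := by
    intro v w
    nth_rewrite 1 [← hPP' v, ← hPP' w]
    rw [← hPadd, hP'P]
  have hP'smul : ∀ (a : F) v, P' (a • v) = a • P' v := by
    intro a v
    nth_rewrite 1 [← hPP' v]
    rw [← hPsmul, hP'P]
  -- the linear members have order three
  have hthree : ∀ j, j ≠ i₁ → r j = 3 := by
    intro j hj
    by_contra hj3
    obtain ⟨k, hk⟩ := hfam.ord j
    obtain ⟨g, hg⟩ : ∃ g : (Fin 3 → F) → (Fin 3 → F), ∀ a, g a = P' (f j (P a)) := ⟨_, fun a => rfl⟩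
    have hPg : ∀ a, P (g a) = f j (P a) := fun a => by rw [hg, hPP']
    have hgk : ∀ m a, P (g^[m] a) = (f j)^[m] (P a) := by
      intro m
      induction m with
      | zero => intro a; rfl
      | succ m ih => intro a; rw [Function.iterate_succ_apply, ih, hPg, Function.iterate_succ_apply]
    obtain ⟨m, hm⟩ : ∃ m, m = 648 := ⟨_, rfl⟩
    have h648 : ∀ a, g^[m] a = a := by
      refine four hℓodd hfix4 hq (fun v w => ?_) (fun d v => ?_) (fun v w => ?_) (fun a => ?_) hm
      · rw [hg, hPadd, Ind.map_add (hfam.lft j), hP'add, hg, hg]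
      · rw [hg, hPsmul, hlin j hj, hP'smul, hg]
      · rw [← hPh, hPg, hPg, lin_iso (hfam.lft j) (hlin j hj), hPh]
      · rw [hg, ← hTP, hTf j hj, ← hPg, hTP, hP'P]
    have hfm : ∀ v, (f j)^[m] v = v := by
      intro v
      rw [← hPP' v, ← hgk, h648]
    have hcop : Nat.Coprime (r j ^ k) m := by
      apply Nat.Coprime.pow_left
      rw [hm, (hfam.pf.prime j).coprime_iff_not_dvd]
      intro hd
      have h5 : r j ∣ 2 ^ 3 * 3 ^ 4 := by
        have : 2 ^ 3 * 3 ^ 4 = 648 := by norm_num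
        rw [this]; exact hd
      rcases (hfam.pf.prime j).dvd_mul.1 h5 with h6 | h6
      · exact hodd j ((Nat.prime_dvd_prime_iff_eq (hfam.pf.prime j) Nat.prime_two).1 ((hfam.pf.prime j).dvd_of_dvd_pow h6))
      · exact hj3 ((Nat.prime_dvd_prime_iff_eq (hfam.pf.prime j) Nat.prime_three).1 ((hfam.pf.prime j).dvd_of_dvd_pow h6))
    have hx1 : x j = 1 := by
      have e1 : x j ^ (r j ^ k) = 1 := ((hfam.lft j).pow _).eq_one_iff.2 ⟨1, fun v => by rw [hk, one_smul]⟩
      have e2 : x j ^ m = 1 := ((hfam.lft j).pow _).eq_one_iff.2 ⟨1, fun v => by rw [hfm, one_smul]⟩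
      have e3 := Nat.dvd_gcd (orderOf_dvd_of_pow_eq_one e1) (orderOf_dvd_of_pow_eq_one e2)
      rw [hcop.gcd_eq_one, Nat.dvd_one, orderOf_eq_one_iff] at e3
      exact e3
    exact hfam.pf.ne j hx1
  obtain ⟨s, hs⟩ := H106.RC.Cov.two U.env hcov hfam.pf.ne i₁
  have hall : ∀ i, i = i₁ ∨ i = s := by
    intro i
    by_cases hi : i = i₁
    · exact Or.inl hi
    · exact Or.inr (hfam.pf.inj ((hthree i hi).trans (hthree s hs).symm))
  -- the singular vector
  obtain ⟨a₀, ha₀⟩ : ∃ a₀ : Fin 3 → F, a₀ = ![1, 1, 0] := ⟨_, rfl⟩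
  have ha₀0 : a₀ ≠ 0 := by
    intro h
    rw [ha₀] at h
    exact one_ne_zero (congrFun h 0)
  have ha₀s : hermForm 3 F q a₀ a₀ = 0 := by
    rw [herm_def, Fin.sum_univ_three, ha₀]
    simp [zero_pow (show q ≠ 0 by omega)]
    linear_combination h2
  refine two_members U rfl h2 (by omega) hfam hcov hRC hs hall hnl hr1 (hthree s hs) (hlin s hs) hc0 hT
    (hTf s hs) (ρ := ρ) (fun v w => ?_) (fun a ha ha0 => ?_) (e₀ := P a₀) (fun h => ha₀0 (hP0 _ h)) (by rw [hPh, ha₀s]) ?_
  · rw [← hPP' v, ← hPP' w, hTP, hTP, hPh, hPh]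
    rw [herm_def, herm_def, map_sum]
    refine Finset.sum_congr rfl fun i _ => ?_
    rw [map_mul, map_pow]
  · have h1 : a ^ 4 = a := by
      have h3 := pow_card (mem_fixf.2 ha)
      rw [hfix4] at h3
      exact h3
    have h3 : a ^ q = a ^ 2 := pow_q hℓodd hfix4 hq (mem_fixf.2 ha)
    rw [h3]
    have h4 : a * (a * a ^ 2 - 1) = 0 := by linear_combination h1
    exact sub_eq_zero.1 ((mul_eq_zero.1 h4).resolve_left ha0)
  · rw [hTP]
    congr 1
    funext i
    rw [ha₀]
    fin_cases i <;> simp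

end main

end Cfsg.Agent.H322.RC
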