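import Cfsg.Agent.H322.RC.Plane
import Cfsg.Agent.CpAutU.Fixed

/-!
# S3510, family E, box E11b: a graph involution, `n = 3`, `q ≥ 4` even (helper322)

`f₂` a `q`-semilinear lift with `f₂² = 1`; `h(v, f₂ v)` is the square of a linear functional `h(v, u₀)`; the vector `u₀`
is fixed by all the lifts of the family, `h(u₀, u₀) = 1`, and the plane `A = u₀^⊥` is used.
-/

set_option autoImplicit false

namespace Cfsg.Agent.H322.RC

open Matrix Cfsg Module Cfsg.Agent.LieClassical.HermBasic Cfsg.Agent.LieClassical.HermSiegel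
  Cfsg.Agent.LieClassical.HermGen Cfsg.Agent.LieClassical.SUBasic Cfsg.Agent.ClassicalGeometry.PSUAutBasic
  Cfsg.Agent.ClassicalGeometry.PSUAutCount Cfsg.Agent.LieClassical.FieldTransfer Cfsg.Agent.ClassicalGeometry
open Cfsg.Agent.H380.RC
open Cfsg.Agent.CpAutU.Fld Cfsg.Agent.CpAut.Psl Cfsg.Agent.CpAut.Descent

section field

variable {F : Type*} [Field F] [Fintype F] {q : ℕ}

theorem one_of_sq (h2 : (2 : F) = 0) {c : F} (hc : c * c = 1) : c = 1 := by
  have h3 : (c - 1) ^ 2 = 0 := by linear_combination hc - (c - 1) * h2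
  exact sub_eq_zero.1 ((pow_eq_zero_iff two_ne_zero).1 h3)

theorem sq_inj (h2 : (2 : F) = 0) {a b : F} (h : a ^ 2 = b ^ 2) : a = b := by
  have h3 : (a - b) ^ 2 = 0 := by linear_combination h - (a * b - b ^ 2) * h2
  exact sub_eq_zero.1 ((pow_eq_zero_iff two_ne_zero).1 h3)

/-- the involutory field automorphism -/
theorem rho_eq_pow (hF : Fintype.card F = q ^ 2) {ρ : F ≃+* F} (h : ∀ a, ρ (ρ a) = a) (hne : ∃ a, ρ a ≠ a) (a : F) :
    ρ a = a ^ q := by
  classical
  have hord : orderOf ρ = 2 := by
    apply orderOf_eq_prime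
    · ext a
      rw [sq]
      exact h a
    · rintro rfl
      obtain ⟨a, ha⟩ := hne
      exact ha rfl
  have hcard := card_fixf hord
  rw [hF] at hcard
  have hc : Nat.card ↥(fixf ρ) = q := (Nat.pow_left_injective (n := 2) two_ne_zero hcard).symm
  have hfix : ∀ b : F, b ^ q = b → ρ b = b := by
    have h1 := card_fixed hF
    letI : Fintype ↥(fixf ρ) := Fintype.ofFinite _
    let φ : ↥(fixf ρ) → {x : F // x ^ q = x} := fun b => ⟨b, by
      have := pow_card b.2
      rwa [hc] at this⟩
    have hφi : Function.Injective φ := fun b b' hb => Subtype.ext (congrArg (fun z : {x : F // x ^ q = x} => (z : F)) hb)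
    have hφ : Function.Bijective φ := by
      rw [Fintype.bijective_iff_injective_and_card]
      refine ⟨hφi, ?_⟩
      rw [← Nat.card_eq_fintype_card, ← Nat.card_eq_fintype_card, hc, h1]
    intro b hb
    obtain ⟨b', hb'⟩ := hφ.2 ⟨b, hb⟩
    have h3 : (b' : F) = b := congrArg Subtype.val hb'
    rw [← h3]
    exact mem_fixf.1 b'.2
  have hfix' : ∀ b : F, ρ b = b → b ^ q = b := by
    intro b hb
    have := pow_card (mem_fixf.2 hb)
    rwa [hc] at this
  have e1 : (a + ρ a) ^ q = a + ρ a := hfix' _ (by rw [map_add, h, add_comm])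
  have e2 : (a * ρ a) ^ q = a * ρ a := hfix' _ (by rw [map_mul, h, mul_comm])
  rw [add_pow_q hF] at e1
  rw [mul_pow] at e2
  have e3 : (a ^ q - a) * (a ^ q - ρ a) = 0 := by
    linear_combination (a ^ q) * e1 - e2
  rcases mul_eq_zero.1 e3 with h1 | h1
  · have h3 := sub_eq_zero.1 h1
    rw [hfix a h3, h3]
  · exact (sub_eq_zero.1 h1).symm

end field

section lin

variable {F : Type*} [Field F] [Fintype F] {n q : ℕ}

/-- the hyperplane of a vector -/
def perp (hF : Fintype.card F = q ^ 2) (u : Fin n → F) : Submodule F (Fin n → F) where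
  carrier := {v | hermForm n F q v u = 0}
  add_mem' := by
    intro v w hv hw
    change hermForm n F q (v + w) u = 0
    rw [herm_add_left, show hermForm n F q v u = 0 from hv, show hermForm n F q w u = 0 from hw, add_zero]
  zero_mem' := herm_zero_left u
  smul_mem' := by
    intro c v hv
    change hermForm n F q (c • v) u = 0
    rw [herm_smul_left, show hermForm n F q v u = 0 from hv, mul_zero]

theorem mem_perp (hF : Fintype.card F = q ^ 2) {u v : Fin n → F} : v ∈ perp hF u ↔ hermForm n F q v u = 0 := Iff.rfl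

theorem finrank_perp (hF : Fintype.card F = q ^ 2) {u : Fin n → F} (hu : u ≠ 0) : finrank F (perp hF u) + 1 = n := by
  let L : (Fin n → F) →ₗ[F] F :=
    { toFun := fun v => hermForm n F q v u
      map_add' := fun v w => herm_add_left v w u
      map_smul' := fun c v => herm_smul_left c v u }
  have h1 := L.finrank_range_add_finrank_ker
  have h2 : LinearMap.ker L = perp hF u := by
    ext v
    rfl
  have h3 : finrank F (LinearMap.range L) = 1 := by
    have h4 : LinearMap.range L = ⊤ := by
      rw [LinearMap.range_eq_top]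
      intro c
      obtain ⟨v, hv⟩ := exists_herm_ne_zero hF hu
      have hv' : hermForm n F q v u ≠ 0 := fun h0 => hv (herm_eq_zero_swap hF h0)
      refine ⟨(c * (hermForm n F q v u)⁻¹) • v, ?_⟩
      change hermForm n F q _ u = c
      rw [herm_smul_left, mul_assoc, inv_mul_cancel₀ hv', mul_one]
    rw [h4, finrank_top, finrank_self]
  rw [h2, h3, finrank_fin_fun] at h1
  omega

theorem ndeg_perp (hF : Fintype.card F = q ^ 2) {u : Fin n → F} (hu : hermForm n F q u u ≠ 0) :
    NDeg q (perp hF u) := by
  intro v hv h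
  apply herm_nondeg hF
  intro w
  obtain ⟨c, hc⟩ : ∃ c, c = hermForm n F q w u * (hermForm n F q u u)⁻¹ := ⟨_, rfl⟩
  have h1 : w - c • u ∈ perp hF u := by
    rw [mem_perp, herm_sub_left, herm_smul_left, hc, mul_assoc, inv_mul_cancel₀ hu, mul_one, sub_self]
  have h2 := h _ h1
  rw [herm_sub_right hF, herm_smul_right, show hermForm n F q v u = 0 from hv, mul_zero, sub_zero] at h2
  exact h2

end lin

section sqrt

variable {F : Type*} [Field F] [Fintype F] {n q : ℕ}

/-- the vector `u₀` -/
theorem exists_u (hF : Fintype.card F = q ^ 2) (h2 : (2 : F) = 0) {T : (Fin n → F) → (Fin n → F)}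
    (hadd : ∀ v w, T (v + w) = T v + T w) (hs : ∀ (c : F) v, T (c • v) = c ^ q • T v)
    (hh : ∀ v w, hermForm n F q (T v) (T w) = (hermForm n F q v w) ^ q) (hTT : ∀ v, T (T v) = v) :
    ∃ u : Fin n → F, ∀ v, (hermForm n F q v u) ^ 2 = hermForm n F q v (T v) := by
  have hchar : CharP F 2 := CharTwo.of_one_ne_zero_of_two_eq_zero one_ne_zero h2
  have hsym : ∀ v w, hermForm n F q w (T v) = hermForm n F q v (T w) := by
    intro v w
    rw [← hTT w, ← pow_q_inj hF, ← herm_swap hF, hTT, ← hh v, herm_swap hF (T (T w)), hTT, ← herm_swap hF]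
  let R := frobeniusEquiv F 2
  have hR : ∀ a : F, (R.symm a) ^ 2 = a := fun a => frobeniusEquiv_symm_pow_p F 2 a
  let L : (Fin n → F) →ₗ[F] F :=
    { toFun := fun v => R.symm (hermForm n F q v (T v))
      map_add' := fun v w => by
        rw [hadd, herm_add_left, herm_add_right hF, herm_add_right hF, hsym v w]
        have e : hermForm n F q v (T v) + hermForm n F q v (T w) + (hermForm n F q v (T w) + hermForm n F q w (T w)) =
            hermForm n F q v (T v) + hermForm n F q w (T w) := by
          linear_combination hermForm n F q v (T w) * h2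
        rw [e, map_add]
      map_smul' := fun c v => by
        rw [hs, herm_smul_left, herm_smul_right, pow_q_pow_q hF, RingHom.id_apply, smul_eq_mul]
        apply sq_inj h2
        rw [hR, mul_pow, hR]
        ring }
  obtain ⟨u, hu⟩ := exists_rep hF L
  exact ⟨u, fun v => by rw [hu]; exact hR _⟩

/-- `u₀` is not singular -/
theorem herm_u (hF : Fintype.card F = q ^ 2) (hn : n = 3) (h2 : (2 : F) = 0) {T : (Fin n → F) → (Fin n → F)}
    (hadd : ∀ v w, T (v + w) = T v + T w) (hs : ∀ (c : F) v, T (c • v) = c ^ q • T v)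
    (hh : ∀ v w, hermForm n F q (T v) (T w) = (hermForm n F q v w) ^ q) (hTT : ∀ v, T (T v) = v)
    {u : Fin n → F} (hu : ∀ v, (hermForm n F q v u) ^ 2 = hermForm n F q v (T v)) (hTu : T u = u) :
    hermForm n F q u u ≠ 0 := by
  have hsym : ∀ v w, hermForm n F q w (T v) = hermForm n F q v (T w) := by
    intro v w
    rw [← hTT w, ← pow_q_inj hF, ← herm_swap hF, hTT, ← hh v, herm_swap hF (T (T w)), hTT, ← herm_swap hF]
  intro huu
  by_cases hu0 : u = 0
  · -- an alternating nondegenerate form in dimension 3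
    have halt : ∀ v, hermForm n F q v (T v) = 0 := by
      intro v
      rw [← hu v, hu0, herm_zero_right hF]
      ring
    obtain ⟨a, ha⟩ : ∃ a : Fin n → F, a ≠ 0 := by
      refine ⟨fun _ => 1, fun h => one_ne_zero (congrFun h ⟨0, by omega⟩)⟩
    obtain ⟨b', hb'⟩ := exists_herm_ne_zero hF ha
    obtain ⟨b, hb⟩ : ∃ b, hermForm n F q a (T b) = 1 := by
      refine ⟨(hermForm n F q a b')⁻¹ • T b', ?_⟩
      rw [hs, hTT, herm_smul_right, pow_q_pow_q hF, inv_mul_cancel₀ hb']
    obtain ⟨c, hc0, hca, hcb⟩ : ∃ c : Fin n → F, c ≠ 0 ∧ hermForm n F q c (T a) = 0 ∧ hermForm n F q c (T b) = 0 := by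
      by_contra hcon
      push Not at hcon
      let L : (Fin n → F) →ₗ[F] (Fin 2 → F) :=
        { toFun := fun v => ![hermForm n F q v (T a), hermForm n F q v (T b)]
          map_add' := fun v w => by
            ext i
            fin_cases i
            · exact herm_add_left v w _
            · exact herm_add_left v w _
          map_smul' := fun c v => by
            ext i
            fin_cases i
            · exact herm_smul_left c v _
            · exact herm_smul_left c v _ }
      have hinj : Function.Injective L := by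
        rw [← LinearMap.ker_eq_bot, LinearMap.ker_eq_bot']
        intro v hv
        by_contra hv0
        exact hcon v hv0 (congrFun hv 0) (congrFun hv 1)
      have := LinearMap.finrank_le_finrank_of_injective hinj
      rw [finrank_fin_fun, finrank_fin_fun] at this
      omega
    have hba : hermForm n F q b (T a) = 1 := by rw [hsym, hb]
    have hac : hermForm n F q a (T c) = 0 := by rw [hsym, hca]
    have hbc : hermForm n F q b (T c) = 0 := by rw [hsym, hcb]
    have hli : LinearIndependent F ![a, b, c] := by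
      rw [Fintype.linearIndependent_iff]
      intro g hg
      rw [Fin.sum_univ_three] at hg
      change g 0 • a + g 1 • b + g 2 • c = 0 at hg
      have e0 := congrArg (fun w => hermForm n F q w (T b)) hg
      have e1 := congrArg (fun w => hermForm n F q w (T a)) hg
      simp only [herm_add_left, herm_smul_left, herm_zero_left, halt, hb, hba, hca, hcb] at e0 e1
      have g0 : g 0 = 0 := by linear_combination e0
      have g1 : g 1 = 0 := by linear_combination e1
      rw [g0, g1, zero_smul, zero_smul, zero_add, zero_add] at hg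
      have g2 := (smul_eq_zero.1 hg).resolve_right hc0
      intro i
      fin_cases i
      · exact g0
      · exact g1
      · exact g2
    have hspan := hli.span_eq_top_of_card_eq_finrank (by rw [finrank_fin_fun, Fintype.card_fin, hn])
    have hall : ∀ v, hermForm n F q v (T c) = 0 := by
      intro v
      have hv : v ∈ Submodule.span F (Set.range ![a, b, c]) := by rw [hspan]; trivial
      refine Submodule.span_induction (p := fun v _ => hermForm n F q v (T c) = 0) ?_ ?_ ?_ ?_ hv
      · rintro _ ⟨i, rfl⟩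
        fin_cases i
        · exact hac
        · exact hbc
        · exact halt c
      · exact herm_zero_left _
      · intro v w _ _ h1 h3
        rw [herm_add_left, h1, h3, add_zero]
      · intro d v _ h1
        rw [herm_smul_left, h1, mul_zero]
    have hTc : T c = 0 := by
      apply herm_nondeg hF
      intro v
      exact herm_eq_zero_swap hF (hall v)
    apply hc0
    rw [← hTT c, hTc]
    have := hs 0 0
    rwa [zero_smul, zero_pow_q hF, zero_smul] at this
  · -- `u` singular
    obtain ⟨w, hw1, hw2⟩ : ∃ w : Fin n → F, hermForm n F q w u = 0 ∧ ∀ a : F, w ≠ a • u := by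
      by_contra hcon
      push Not at hcon
      have h1 := finrank_perp hF hu0
      have h3 : perp hF u ≤ Submodule.span F {u} := by
        intro w hw
        obtain ⟨a, ha⟩ := hcon w hw
        rw [Submodule.mem_span_singleton]
        exact ⟨a, ha.symm⟩
      have h4 := Submodule.finrank_mono h3
      rw [finrank_span_singleton hu0] at h4
      omega
    have hTw : ∀ a : F, T w ≠ a • u := by
      intro a ha
      apply hw2 (a ^ q)
      rw [← hTT w, ha, hs, hTu]
    obtain ⟨z, hz1, hz2⟩ := exists_perp_eq hF hTw 1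
    have hli : LinearIndependent F ![u, w] := by
      rw [LinearIndependent.pair_iff]
      intro s t hst
      have ht : t = 0 := by
        by_contra ht
        apply hw2 (-(t⁻¹ * s))
        have e : t⁻¹ • (s • u + t • w) = 0 := by rw [hst, smul_zero]
        rw [smul_add, smul_smul, smul_smul, inv_mul_cancel₀ ht, one_smul] at e
        rw [neg_smul]
        exact eq_neg_of_add_eq_zero_right e
      rw [ht, zero_smul, add_zero] at hst
      exact ⟨(smul_eq_zero.1 hst).resolve_right hu0, ht⟩
    have hsp : Submodule.span F (Set.range ![u, w]) = perp hF u := by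
      apply Submodule.eq_of_le_of_finrank_le
      · rw [Submodule.span_le]
        rintro _ ⟨i, rfl⟩
        fin_cases i
        · exact huu
        · exact hw1
      · rw [finrank_span_eq_card hli, Fintype.card_fin]
        have := finrank_perp hF hu0
        omega
    have hz : z ∈ Submodule.span F (Set.range ![u, w]) := by rw [hsp]; exact hz1
    have hzz : hermForm n F q z (T w) = 0 := by
      refine Submodule.span_induction (p := fun v _ => hermForm n F q v (T w) = 0) ?_ ?_ ?_ ?_ hz
      · rintro _ ⟨i, rfl⟩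
        fin_cases i
        · change hermForm n F q u (T w) = 0
          rw [hsym, hTu]
          exact hw1
        · change hermForm n F q w (T w) = 0
          rw [← hu w, hw1]
          ring
      · exact herm_zero_left _
      · intro v w _ _ h1 h3
        rw [herm_add_left, h1, h3, add_zero]
      · intro d v _ h1
        rw [herm_smul_left, h1, mul_zero]
    rw [hz2] at hzz
    exact one_ne_zero hzz

end sqrt

section iter

variable {F : Type*} [Field F] {n : ℕ}

theorem iter_smul {f : (Fin n → F) → (Fin n → F)} {ρ : F ≃+* F} (hs : ∀ (c : F) (v : Fin n → F), f (c • v) = ρ c • f v)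
    (m : ℕ) (c : F) (v : Fin n → F) : f^[m] (c • v) = (ρ ^ m) c • f^[m] v := by
  induction m generalizing c v with
  | zero => rfl
  | succ m ih =>
    rw [Function.iterate_succ_apply, hs, ih, Function.iterate_succ_apply]
    rfl

/-- the field automorphism of a semilinear map of finite order -/
theorem rho_pow {f : (Fin n → F) → (Fin n → F)} {ρ : F ≃+* F} (hs : ∀ (c : F) (v : Fin n → F), f (c • v) = ρ c • f v)
    {m : ℕ} (hm : ∀ v, f^[m] v = v) {v₀ : Fin n → F} (hv₀ : v₀ ≠ 0) (c : F) : (ρ ^ m) c = c := by
  have h1 := iter_smul hs m c v₀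
  rw [hm, hm] at h1
  have h3 : ((ρ ^ m) c - c) • v₀ = 0 := by rw [sub_smul, ← h1, sub_self]
  exact sub_eq_zero.1 ((smul_eq_zero.1 h3).resolve_right hv₀)

theorem lin_of_rho {f : (Fin n → F) → (Fin n → F)} {ρ : F ≃+* F} (hs : ∀ (c : F) (v : Fin n → F), f (c • v) = ρ c • f v)
    (h : ∀ c, ρ c = c) : Lin f := fun c v => by rw [hs, h]

end iter

section graph

variable {G Ω : Type} [Group G] [Finite G] [Finite Ω] [Nonempty Ω] [MulAction G Ω] {N : Subgroup G} {F : Type} [Field F]
  [Fintype F] {n q : ℕ}

/-- **No cover with a graph involution, `n = 3`, `q ≥ 4` even.** -/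
theorem graph_case (U : UEnv G Ω N F n q) (hn : n = 3) (h2 : (2 : F) = 0) (hq : 4 ≤ q) {ι : Type} [Finite ι]
    {x : ι → G} {f : ι → (Fin n → F) → (Fin n → F)} {r : ι → ℕ} (hfam : UFam U x f r) (hcov : H106.RC.Cov Ω x)
    (hRC : H106.RC.RC (PSU 2 F q)) {i₂ : ι} (hnl : ¬ Lin (f i₂)) (hr2 : r i₂ = 2) : False := by
  classical
  have hF := U.hF
  obtain ⟨v₀, hv₀⟩ := exists_ne U
  obtain ⟨ρ, hs, hh⟩ := Ind.exists_rho (hfam.lft i₂)
  obtain ⟨c, hc⟩ := ((hfam.lft i₂).pow 2).eq_one_iff.1 (by rw [← hr2]; exact hfam.pf.pow i₂)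
  have hcc := norm_of_scalar U ((hfam.lft i₂).pow 2) hc
  have hc0 : c ≠ 0 := by
    rintro rfl
    rw [zero_mul] at hcc
    exact zero_ne_one hcc
  have hc' : ∀ v, f i₂ (f i₂ v) = c • v := hc
  have hρ2 : ∀ a, ρ (ρ a) = a := by
    intro a
    have h1 := hc' (a • v₀)
    rw [hs, hs, hc', smul_smul, smul_smul] at h1
    have h3 : ((ρ (ρ a) - a) * c) • v₀ = 0 := by
      rw [sub_mul, sub_smul, h1, mul_comm, sub_self]
    have h4 := (smul_eq_zero.1 h3).resolve_right hv₀
    exact sub_eq_zero.1 ((mul_eq_zero.1 h4).resolve_right hc0)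
  have hρne : ∃ a, ρ a ≠ a := by
    by_contra hcon
    push Not at hcon
    exact hnl (lin_of_rho hs hcon)
  have hρq := rho_eq_pow hF hρ2 hρne
  have hf0 : ∀ j, ∀ v, v ≠ 0 → f j v ≠ 0 := by
    intro j v hv h0
    rw [← f_zero (hfam.lft j)] at h0
    exact hv (Ind.injective (hfam.lft j) h0)
  have hcq : c ^ q = c := by
    have h1 : f i₂ (f i₂ (f i₂ v₀)) = c • f i₂ v₀ := hc' _
    rw [hc' v₀, hs, hρq] at h1
    have h3 : (c ^ q - c) • f i₂ v₀ = 0 := by rw [sub_smul, h1, sub_self]
    exact sub_eq_zero.1 ((smul_eq_zero.1 h3).resolve_right (hf0 _ _ hv₀))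
  have hc1 : c = 1 := one_of_sq h2 (by rw [hcq] at hcc; exact hcc)
  have hTT : ∀ v, f i₂ (f i₂ v) = v := fun v => by rw [hc', hc1, one_smul]
  have hs' : ∀ (c : F) v, f i₂ (c • v) = c ^ q • f i₂ v := fun c v => by rw [hs, hρq]
  have hh' : ∀ v w, hermForm n F q (f i₂ v) (f i₂ w) = (hermForm n F q v w) ^ q := fun v w => by rw [hh, hρq]
  obtain ⟨u, hu⟩ := exists_u hF h2 (Ind.map_add (hfam.lft i₂)) hs' hh' hTT
  -- `u` is fixed by all the lifts
  have hfix : ∀ j, f j u = u := by
    intro j
    obtain ⟨σ, hsj, hhj⟩ := Ind.exists_rho (hfam.lft j)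
    have h1 : ∀ v, hermForm n F q (f j v) (f j u) = hermForm n F q (f j v) u := by
      intro v
      apply sq_inj h2
      rw [hhj, ← map_pow, hu v, ← hhj, hfam.comm j i₂, hu]
    have h3 : f j u - u = 0 := by
      apply herm_nondeg hF
      intro w
      apply herm_eq_zero_swap hF
      obtain ⟨v, rfl⟩ := Ind.surjective (hfam.lft j) w
      rw [herm_sub_right hF, h1, sub_self]
    exact sub_eq_zero.1 h3
  have huu := herm_u hF hn h2 (Ind.map_add (hfam.lft i₂)) hs' hh' hTT hu (hfix i₂)
  have hu0 : u ≠ 0 := by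
    rintro rfl
    exact huu (herm_zero_left _)
  have hA := ndeg_perp hF huu
  have hA2 : finrank F (perp hF u) = 2 := by
    have := finrank_perp hF hu0
    omega
  have hst : ∀ j, Stab (f j) (perp hF u) := by
    intro j v hv
    obtain ⟨σ, hsj, hhj⟩ := Ind.exists_rho (hfam.lft j)
    rw [mem_perp, ← hfix j, hhj, show hermForm n F q v u = 0 from hv, map_zero]
  -- linear members do not centralise
  have hJ : ∀ j, CenA U (perp hF u) (x j) → ¬ Lin (f j) := by
    intro j hj hl
    obtain ⟨d, hd⟩ := scal_of_cen U (hfam.lft j) hl hA hA2 hj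
    obtain ⟨e, heA, he0, he⟩ := exists_sing_mem hF hA hA2
    have hdq : d ^ q = d := by
      have h1 := hfam.comm j i₂ e
      rw [hd _ (hst i₂ e heA), hd e heA, hs'] at h1
      have h3 : (d ^ q - d) • f i₂ e = 0 := by rw [sub_smul, h1, sub_self]
      exact sub_eq_zero.1 ((smul_eq_zero.1 h3).resolve_right (hf0 _ _ he0))
    obtain ⟨w, hwA, hw⟩ : ∃ w ∈ perp hF u, hermForm n F q e w ≠ 0 := by
      by_contra hcon
      push Not at hcon
      exact he0 (hA e heA hcon)
    have hdd : d * d = 1 := by
      have h1 := lin_iso (hfam.lft j) hl e w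
      rw [hd e heA, hd w hwA, herm_smul_left, herm_smul_right, hdq] at h1
      have h3 : (d * d - 1) * hermForm n F q e w = 0 := by linear_combination h1
      exact sub_eq_zero.1 ((mul_eq_zero.1 h3).resolve_right hw)
    have hd1 := one_of_sq h2 hdd
    apply hfam.pf.ne j
    rw [(hfam.lft j).eq_one_iff]
    refine ⟨1, fun v => ?_⟩
    rw [one_smul]
    obtain ⟨a, ha⟩ : ∃ a, a = hermForm n F q v u * (hermForm n F q u u)⁻¹ := ⟨_, rfl⟩
    have h1 : v - a • u ∈ perp hF u := by
      rw [mem_perp, herm_sub_left, herm_smul_left, ha, mul_assoc, inv_mul_cancel₀ huu, mul_one, sub_self]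
    have h3 : v = (v - a • u) + a • u := by abel
    conv_lhs => rw [h3]
    rw [Ind.map_add (hfam.lft j), hl, hfix, hd _ h1, hd1, one_smul]
    abel
  refine plane U hq hfam.pf hfam.lft hcov hA hA2 hst hRC hJ ?_
  have key : ∀ j, CenA U (perp hF u) (x j) → j = i₂ := by
    intro j hj
    by_contra hji
    apply hJ j hj
    obtain ⟨σ, hsj, hhj⟩ := Ind.exists_rho (hfam.lft j)
    obtain ⟨d, hd0, hd⟩ := rho_of_cen U (hfam.lft j) hsj hhj hA hA2 hj
    have hd1 : d = 1 := by
      have h1 := hd 1 (by rw [one_pow]; linear_combination h2)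
      rwa [map_one, mul_one] at h1
    have hσfix : ∀ a : F, a ^ q = a → σ a = a := by
      intro a ha
      have h1 := hd a (by rw [ha]; linear_combination a * h2)
      rwa [hd1, one_mul] at h1
    have hσ2 : ∀ a, σ (σ a) = a := by
      intro a
      have e1 := hσfix (a + a ^ q) (trace_pow_q hF a)
      have e2 := hσfix (a * a ^ q) (norm_pow_q hF a)
      rw [map_add, map_pow] at e1
      rw [map_mul, map_pow] at e2
      have e3 : (σ a - a) * (σ a - a ^ q) = 0 := by
        linear_combination (σ a) * e1 - e2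
      rcases mul_eq_zero.1 e3 with h1 | h1
      · rw [sub_eq_zero.1 h1, sub_eq_zero.1 h1]
      · rw [sub_eq_zero.1 h1, map_pow, sub_eq_zero.1 h1, pow_q_pow_q hF]
    obtain ⟨k, hk⟩ := hfam.ord j
    have hodd : Odd (r j ^ k) := by
      apply Odd.pow
      apply (hfam.pf.prime j).odd_of_ne_two
      intro h
      exact hji (hfam.pf.inj (h.trans hr2.symm))
    obtain ⟨m, hm⟩ := hodd
    have hσm : ∀ a, (σ ^ (r j ^ k)) a = a := rho_pow hsj hk hv₀
    refine lin_of_rho hsj fun a => ?_
    have h3 := hσm a
    have h4 : ∀ m : ℕ, ∀ a, (σ ^ (2 * m)) a = a := by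
      intro m
      induction m with
      | zero => intro a; rfl
      | succ m ih =>
        intro a
        rw [mul_add, pow_add, RingAut.mul_apply, ih]
        exact hσ2 a
    rw [hm, pow_add, pow_one, RingAut.mul_apply, h4] at h3
    exact h3
  intro i j hi hj
  rw [key i hi, key j hj]

end graph

end Cfsg.Agent.H322.RC
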