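import Cfsg.Agent.H322.RC.Base
import Cfsg.Agent.H452.RC.GDecMain

/-!
# S3510, family E, box E11b: the rule for an invariant nondegenerate plane (helper322)

* `CenA U A x` : `x` commutes with the root elements with centre in `A`;
* `plane` : `A` an invariant nondegenerate plane, `q ≥ 4`, at most one member satisfies `CenA`, and this member is
  not linear : no cover;
* `scal_of_cen` : a linear member with `CenA` is a scalar on `A`;
* `rho_of_cen` : the field automorphism of an element with `CenA` fixes the trace zero elements up to a norm.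
-/

set_option autoImplicit false

namespace Cfsg.Agent.H322.RC

open Matrix Cfsg Module Cfsg.Agent.LieClassical.HermBasic Cfsg.Agent.LieClassical.HermSiegel
  Cfsg.Agent.LieClassical.HermGen Cfsg.Agent.LieClassical.SUBasic Cfsg.Agent.ClassicalGeometry.PSUAutBasic
  Cfsg.Agent.ClassicalGeometry.PSUAutCount Cfsg.Agent.LieClassical.FieldTransfer Cfsg.Agent.ClassicalGeometry
open Cfsg.Agent.H380.RC Cfsg.Agent.H452.RC
open Cfsg.Agent.H189.SN (ON phi Im phi_Im phi_perp phi_injective pr_phi_injective decomp Im_mulVec Im_injective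
  herm_Im)

section cen

variable {G Ω : Type*} [Group G] [MulAction G Ω] {N : Subgroup G} {F : Type*} [Field F] [Fintype F] {n q : ℕ}

/-- `x` commutes with the root elements with centre in `A` -/
def CenA (U : UEnv G Ω N F n q) (A : Submodule F (Fin n → F)) (x : G) : Prop :=
  ∀ e ∈ A, ∀ (he : hermForm n F q e e = 0) (μ : F) (hμ : μ + μ ^ q = 0),
    x * U.el (transv U.hF e he μ hμ) = U.el (transv U.hF e he μ hμ) * x

/-- a nondegenerate plane contains a singular vector -/
theorem exists_sing_mem (hF : Fintype.card F = q ^ 2) {A : Submodule F (Fin n → F)} (hA : NDeg q A)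
    (hA2 : finrank F A = 2) : ∃ e ∈ A, e ≠ 0 ∧ hermForm n F q e e = 0 := by
  obtain ⟨b, hb, hbA, -⟩ := exists_basis hF hA hA2
  obtain ⟨e, he0, he⟩ := exists_sing (F := F) (q := q) (m := 2) hF le_rfl
  refine ⟨Im b *ᵥ e, hbA e, ?_, by rw [herm_Im hF hb, he]⟩
  intro h
  apply he0
  apply Im_injective hb
  change Im b *ᵥ e = Im b *ᵥ 0
  rw [h, mulVec_zero]

end cen

section plane

variable {G Ω : Type} [Group G] [Finite G] [Finite Ω] [Nonempty Ω] [MulAction G Ω] {N : Subgroup G} {F : Type} [Field F]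
  [Fintype F] {n q : ℕ}

/-- **The plane rule.** -/
theorem plane (U : UEnv G Ω N F n q) (hq : 4 ≤ q) {ι : Type} [Finite ι] {x : ι → G}
    {f : ι → (Fin n → F) → (Fin n → F)} {r : ι → ℕ} (hpf : H106.RC.PF x r) (hlft : ∀ i, U.Lft (x i) (f i))
    (hcov : H106.RC.Cov Ω x) {A : Submodule F (Fin n → F)} (hA : NDeg q A) (hA2 : finrank F A = 2)
    (hst : ∀ i, Stab (f i) A) (hRC : H106.RC.RC (PSU 2 F q)) (hJ : ∀ j, CenA U A (x j) → ¬ Lin (f j))
    (hJ1 : ∀ i j, CenA U A (x i) → CenA U A (x j) → i = j) : False := by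
  classical
  obtain ⟨b, hb, hbA, hAb⟩ := exists_basis U.hF hA hA2
  have hn := U.hn
  have hmn : 2 < n := by omega
  have hinv : ∀ i j, ∃ c, f i (b j) = Im b *ᵥ c := by
    intro i j
    apply hAb
    apply hst i
    have h1 := hbA (Pi.single j 1)
    rwa [Im_mulVec, Finset.sum_eq_single j, Pi.single_eq_same, one_smul] at h1
    · intro k _ hk
      rw [Pi.single_eq_of_ne hk, zero_smul]
    · intro h
      exact absurd (Finset.mem_univ j) h
  have hM : ∀ ω : Ω, MM U hb ≤ MulAction.stabilizer G ω ∨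
      ∃ j, (∀ y ∈ MM U hb, x j * y = y * x j) ∧ x j • ω = ω := fun ω =>
    H106.RC.mrule_RC (simple_two U.hF hq) (nc_two U.hF hq) x r hpf.prime hpf.inj hpf.pow hpf.comm (MM U hb)
      (MM_perf U hb (comm_two U.hF hq)) (pi U hb hmn) (pi_surjective U hb hmn) (pi_ker U hb hmn)
      (fun i => mem_normalizer U hb (hlft i) (hinv i)) hRC ω (fun m _ => hcov _)
  -- root elements of `A` are in `MM`
  have hroot : ∀ e ∈ A, ∀ (he : hermForm n F q e e = 0) (μ : F) (hμ : μ + μ ^ q = 0),
      U.el (transv U.hF e he μ hμ) ∈ MM U hb := by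
    intro e he' he μ hμ
    obtain ⟨c, rfl⟩ := hAb e he'
    have hc : hermForm 2 F q c c = 0 := by rw [← herm_Im U.hF hb, he]
    rw [← phi_transv U.hF hb hc he hμ]
    exact ph_mem U hb _
  have hcen : ∀ j, (∀ y ∈ MM U hb, x j * y = y * x j) → CenA U A (x j) := fun j hj e he' he μ hμ =>
    hj _ (hroot e he' he μ hμ)
  obtain ⟨e, heA, he0, he⟩ := exists_sing_mem U.hF hA hA2
  obtain ⟨μ, hμ0, hμ⟩ := exists_trace_zero_ne (F := F) (q := q) U.hF
  have hne := U.el_transv_ne he he0 hμ hμ0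
  by_cases hex : ∃ j, CenA U A (x j)
  · obtain ⟨j, hj⟩ := hex
    obtain ⟨c, hc⟩ := fix_of_comm (hu := he) (hμ := hμ) (hlft j) he0 hμ0 (hj e heA he μ hμ)
    refine U.root_one (hlft j) he0 he hc (hJ j hj) hμ hμ0 (fun ω => ?_)
    rcases hM ω with h | ⟨k, hk, h⟩
    · exact Or.inl (h (hroot e heA he μ hμ))
    · right
      rw [hJ1 j k hj (hcen k hk)]
      exact h
  · push Not at hex
    refine hne (U.env.single fun ω => ?_)
    rcases hM ω with h | ⟨k, hk, -⟩
    · exact h (hroot e heA he μ hμ)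
    · exact absurd (hcen k hk) (hex k)

/-- a linear element with `CenA` is a scalar on `A` -/
theorem scal_of_cen (U : UEnv G Ω N F n q) {x : G} {f : (Fin n → F) → (Fin n → F)}
    (h : U.Lft x f) (hl : Lin f) {A : Submodule F (Fin n → F)} (hA : NDeg q A) (hA2 : finrank F A = 2)
    (hc : CenA U A x) : ScalOn f A := by
  obtain ⟨b, hb, hbA, hAb⟩ := exists_basis U.hF hA hA2
  obtain ⟨μ, hμ0, hμ⟩ := exists_trace_zero_ne (F := F) (q := q) U.hF
  have hF := U.hF
  -- singular vectors of `A` are eigenvectors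
  have hsing : ∀ e ∈ A, hermForm n F q e e = 0 → ∃ c : F, f e = c • e := by
    intro e he' he
    by_cases he0 : e = 0
    · exact ⟨0, by rw [he0, f_zero h, smul_zero]⟩
    · exact fix_of_comm (hu := he) (hμ := hμ) h he0 hμ0 (hc e he' he μ hμ)
  obtain ⟨t, ht, htn⟩ := exists_three (F := F) (q := q) hF
  have hb0 : ∀ i, b i ∈ A := by
    intro i
    have h1 := hbA (Pi.single i 1)
    rwa [Im_mulVec, Finset.sum_eq_single i, Pi.single_eq_same, one_smul] at h1
    · intro k _ hk
      rw [Pi.single_eq_of_ne hk, zero_smul]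
    · intro h
      exact absurd (Finset.mem_univ i) h
  obtain ⟨v, hv⟩ : ∃ v : Fin 3 → (Fin n → F), ∀ i, v i = b 0 + t i • b 1 := ⟨_, fun i => rfl⟩
  have hvA : ∀ i, v i ∈ A := fun i => by rw [hv]; exact A.add_mem (hb0 0) (A.smul_mem _ (hb0 1))
  have h01 : hermForm n F q (b 0) (b 1) = 0 := by rw [hb]; simp
  have h10 : hermForm n F q (b 1) (b 0) = 0 := by rw [hb]; simp
  have h00 : hermForm n F q (b 0) (b 0) = 1 := by rw [hb]; simp
  have h11 : hermForm n F q (b 1) (b 1) = 1 := by rw [hb]; simp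
  have hvs : ∀ i, hermForm n F q (v i) (v i) = 0 := by
    intro i
    rw [hv, herm_add_left, herm_add_right hF, herm_add_right hF, herm_smul_left, herm_smul_left, herm_smul_right,
      herm_smul_right, h01, h10, h00, h11]
    linear_combination htn i
  have hev : ∀ i, ∃ c : F, f (v i) = c • v i := fun i => hsing _ (hvA i) (hvs i)
  choose c hc' using hev
  -- the independence of `b 0, b 1`
  have hind : ∀ a a' : F, a • b 0 + a' • b 1 = 0 → a = 0 ∧ a' = 0 := by
    intro a a' haa
    have e0 := congrArg (fun w => hermForm n F q w (b 0)) haa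
    have e1 := congrArg (fun w => hermForm n F q w (b 1)) haa
    simp only [herm_add_left, herm_smul_left, herm_zero_left, h00, h10, h01, h11] at e0 e1
    exact ⟨by linear_combination e0, by linear_combination e1⟩
  have hkey : ∀ i, f (b 0) + t i • f (b 1) = c i • b 0 + (c i * t i) • b 1 := by
    intro i
    have h1 := hc' i
    rw [hv, Ind.map_add h, hl, smul_add, smul_smul] at h1
    exact h1
  have hne01 : t 0 - t 1 ≠ 0 := sub_ne_zero.2 fun h => absurd (ht h) (by decide)
  have hne02 : t 0 - t 2 ≠ 0 := sub_ne_zero.2 fun h => absurd (ht h) (by decide)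
  have hne12 : t 1 - t 2 ≠ 0 := sub_ne_zero.2 fun h => absurd (ht h) (by decide)
  -- `f (b 1)` from two of the equations
  have hd : ∀ i j, (t i - t j) • f (b 1) = (c i - c j) • b 0 + (c i * t i - c j * t j) • b 1 := by
    intro i j
    have e1 := hkey i
    have e2 := hkey j
    have e3 : (t i - t j) • f (b 1) = (f (b 0) + t i • f (b 1)) - (f (b 0) + t j • f (b 1)) := by
      rw [sub_smul]; abel
    rw [e3, e1, e2, sub_smul, sub_smul]
    abel
  have hcmp : ((t 0 - t 2) * (c 0 - c 1) - (t 0 - t 1) * (c 0 - c 2)) • b 0 +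
      ((t 0 - t 2) * (c 0 * t 0 - c 1 * t 1) - (t 0 - t 1) * (c 0 * t 0 - c 2 * t 2)) • b 1 = 0 := by
    have e1 := congrArg (fun w => (t 0 - t 2) • w) (hd 0 1)
    have e2 := congrArg (fun w => (t 0 - t 1) • w) (hd 0 2)
    rw [smul_smul, smul_add, smul_smul, smul_smul] at e1 e2
    rw [mul_comm (t 0 - t 1) (t 0 - t 2)] at e2
    have e3 := e1.symm.trans e2
    rw [sub_smul, sub_smul]
    have e4 := sub_eq_zero.2 e3
    rw [← e4]
    abel
  obtain ⟨g1, g2⟩ := hind _ _ hcmp
  -- hence `c 0 = c 1 = c 2`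
  have hc01 : c 0 = c 1 := by
    have e : (t 0 - t 1) * ((t 0 - t 2) * ((t 1 - t 2) * (c 0 - c 1))) = 0 := by
      linear_combination (t 0 - t 1) * (g2 - t 2 * g1)
    rcases mul_eq_zero.1 e with h1 | h1
    · exact absurd h1 hne01
    · rcases mul_eq_zero.1 h1 with h1 | h1
      · exact absurd h1 hne02
      · rcases mul_eq_zero.1 h1 with h1 | h1
        · exact absurd h1 hne12
        · exact sub_eq_zero.1 h1
  have hb1 : f (b 1) = c 0 • b 1 := by
    have e := hd 0 1
    rw [← hc01, sub_self, zero_smul, zero_add, ← mul_sub, mul_comm, mul_smul] at e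
    exact smul_right_injective _ hne01 e
  have hb0' : f (b 0) = c 0 • b 0 := by
    have e := hkey 0
    rw [hb1, smul_smul, mul_comm (t 0) (c 0)] at e
    exact add_right_cancel e
  refine ⟨c 0, fun w hw => ?_⟩
  obtain ⟨d, rfl⟩ := hAb w hw
  rw [Im_mulVec, Fin.sum_univ_two, Ind.map_add h, hl, hl, hb1, hb0', smul_add, smul_comm (c 0), smul_comm (c 0)]

/-- the field automorphism of an element with `CenA` -/
theorem rho_of_cen (U : UEnv G Ω N F n q) {x : G} {f : (Fin n → F) → (Fin n → F)}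
    (h : U.Lft x f) {ρ : F ≃+* F} (hs : ∀ (c : F) (v : Fin n → F), f (c • v) = ρ c • f v)
    (hh : ∀ u v, hermForm n F q (f u) (f v) = ρ (hermForm n F q u v)) {A : Submodule F (Fin n → F)} (hA : NDeg q A)
    (hA2 : finrank F A = 2) (hc : CenA U A x) :
    ∃ c : F, c ≠ 0 ∧ ∀ μ : F, μ + μ ^ q = 0 → c * ρ μ = μ := by
  obtain ⟨e, heA, he0, he⟩ := exists_sing_mem U.hF hA hA2
  obtain ⟨μ, hμ0, hμ⟩ := exists_trace_zero_ne (F := F) (q := q) U.hF
  obtain ⟨c, hce⟩ := fix_of_comm (hu := he) (hμ := hμ) h he0 hμ0 (hc e heA he μ hμ)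
  refine ⟨c * c ^ q, ?_, fun ν hν => rho_of_comm (hu := he) (hμ := hν) h hs hh he0 hce (hc e heA he ν hν)⟩
  intro h0
  have h1 := rho_of_comm (hu := he) (hμ := hμ) h hs hh he0 hce (hc e heA he μ hμ)
  rw [h0, zero_mul] at h1
  exact hμ0 h1.symm

end plane

end Cfsg.Agent.H322.RC
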